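import Mathlib

/-!
# `N(P)/C(P)` for abelian Sylow subgroups of symmetric and alternating groups

An element of `P` conjugate to its inverse gives an element of even order in `N(P)/C(P)` (Burnside).
-/

set_option autoImplicit false

namespace Cfsg.Agent.Lib.AbelianSylowNC

open Equiv Equiv.Perm Subgroup

theorem even_index_of_conj_inv {G : Type*} [Group G] [Finite G] {p : ℕ} [Fact p.Prime] (P : Sylow p G)
    [IsMulCommutative (P : Subgroup G)] {z : G} (hz : z ∈ (P : Subgroup G)) (hz2 : z ^ 2 ≠ 1)
    (hc : IsConj z z⁻¹) :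
    2 ∣ ((Subgroup.centralizer ((P : Subgroup G) : Set G)).subgroupOf
      (Subgroup.normalizer ((P : Subgroup G) : Set G))).index := by
  obtain ⟨c, hc⟩ := isConj_iff.mp hc
  have hy : c⁻¹⁻¹ * z * c⁻¹ ∈ (P : Subgroup G) := by
    rw [inv_inv, hc]
    exact inv_mem hz
  obtain ⟨n, hn, hn'⟩ := P.conj_eq_normalizer_conj_of_mem z c⁻¹ hz hy
  rw [inv_inv, hc] at hn'
  set N := Subgroup.normalizer ((P : Subgroup G) : Set G) with hN
  set C := (Subgroup.centralizer ((P : Subgroup G) : Set G)).subgroupOf N with hC
  haveI : C.Normal := by rw [hC, hN]; infer_instance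
  by_contra h2
  -- the class of `n` in the quotient has odd order, so a power of `n` with odd exponent centralises `z`
  have hodd : Odd (orderOf (QuotientGroup.mk (⟨n, hn⟩ : N) : N ⧸ C)) := by
    rw [Nat.odd_iff]
    by_contra he
    refine h2 (dvd_trans (Nat.dvd_iff_mod_eq_zero.mpr (Nat.mod_two_ne_one.mp he)) ?_)
    rw [Subgroup.index_eq_card]
    exact orderOf_dvd_natCard _
  set m := orderOf (QuotientGroup.mk (⟨n, hn⟩ : N) : N ⧸ C) with hm
  have hmem : (⟨n, hn⟩ : N) ^ m ∈ C := by
    rw [← QuotientGroup.eq_one_iff, QuotientGroup.mk_pow, hm, pow_orderOf_eq_one]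
  rw [hC, Subgroup.mem_subgroupOf, SubmonoidClass.coe_pow, Subgroup.mem_centralizer_iff] at hmem
  have hfix : z * n ^ m = n ^ m * z := hmem z hz
  have hflip : ∀ k : ℕ, (n ^ k)⁻¹ * z * n ^ k = if Even k then z else z⁻¹ := by
    intro k
    induction k with
    | zero => simp
    | succ k ih =>
      rw [pow_succ, mul_inv_rev, show n⁻¹ * (n ^ k)⁻¹ * z * (n ^ k * n) = n⁻¹ * ((n ^ k)⁻¹ * z * n ^ k) * n by group,
        ih]
      by_cases hk : Even k
      · rw [if_pos hk, if_neg (by simpa [Nat.even_add_one] using hk), ← hn']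
      · rw [if_neg hk, if_pos (by simpa [Nat.even_add_one] using hk)]
        have := congrArg (fun x => x⁻¹) hn'
        simp only [mul_inv_rev, inv_inv] at this
        rw [mul_assoc]
        exact this.symm
  have := hflip m
  rw [if_neg (Nat.not_even_iff_odd.mpr hodd), mul_assoc, hfix, inv_mul_cancel_left] at this
  exact hz2 (by rw [pow_two]; nth_rewrite 2 [this]; exact mul_inv_cancel z)

variable {α : Type*} [Fintype α] [DecidableEq α]

theorem isConj_inv (z : Perm α) : IsConj z z⁻¹ := by
  rw [isConj_iff_cycleType_eq, cycleType_inv]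

theorem symm_even {p : ℕ} [Fact p.Prime] (hp : p ≠ 2) (hpn : p ≤ Fintype.card α) (P : Sylow p (Perm α))
    [IsMulCommutative (P : Subgroup (Perm α))] :
    2 ∣ ((Subgroup.centralizer ((P : Subgroup (Perm α)) : Set (Perm α))).subgroupOf
      (Subgroup.normalizer ((P : Subgroup (Perm α)) : Set (Perm α)))).index := by
  have hdvd : p ∣ Nat.card (P : Subgroup (Perm α)) := P.dvd_card_of_dvd_card (by
    rw [Nat.card_perm, Nat.card_eq_fintype_card]
    exact (Fact.out : p.Prime).dvd_factorial.mpr hpn)
  obtain ⟨⟨z, hz⟩, hord⟩ := exists_prime_orderOf_dvd_card' p hdvd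
  rw [Subgroup.orderOf_mk] at hord
  refine even_index_of_conj_inv P hz (fun h => ?_) (isConj_inv z)
  have := Nat.le_of_dvd (by norm_num) (orderOf_dvd_of_pow_eq_one h)
  rw [hord] at this
  have := (Fact.out : p.Prime).two_le
  omega

theorem alt_isConj_inv {z : alternatingGroup α}
    (h : ¬ Subgroup.centralizer {(z : Perm α)} ≤ alternatingGroup α) : IsConj z z⁻¹ := by
  obtain ⟨c, hc⟩ := isConj_iff.mp (isConj_inv (z : Perm α))
  obtain ⟨u, hu, hu'⟩ := SetLike.not_le_iff_exists.mp h
  rw [Subgroup.mem_centralizer_singleton_iff] at hu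
  rw [mem_alternatingGroup] at hu'
  rcases Int.units_eq_one_or (sign c) with hs | hs
  · exact isConj_iff.mpr ⟨⟨c, mem_alternatingGroup.mpr hs⟩, Subtype.ext (by simpa using hc)⟩
  · refine isConj_iff.mpr ⟨⟨c * u, mem_alternatingGroup.mpr ?_⟩, Subtype.ext ?_⟩
    · rw [map_mul, hs, (Int.units_eq_one_or (sign u)).resolve_left hu']
      rfl
    · simp only [Subgroup.coe_mul, InvMemClass.coe_inv]
      rw [mul_inv_rev, ← hc, mul_assoc c u, hu]
      group

theorem alt_odd {p : ℕ} [Fact p.Prime] (hp : p ≠ 2) (P : Sylow p (alternatingGroup α))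
    [IsMulCommutative (P : Subgroup (alternatingGroup α))] :
    2 ∣ ((Subgroup.centralizer ((P : Subgroup (alternatingGroup α)) : Set (alternatingGroup α))).subgroupOf
      (Subgroup.normalizer ((P : Subgroup (alternatingGroup α)) : Set (alternatingGroup α)))).index ∨
      IsCyclic (P : Subgroup (alternatingGroup α)) := by
  have hpp : p.Prime := Fact.out
  by_cases hbig : p + 2 ≤ Fintype.card α
  · left
    haveI : Nontrivial α := Fintype.one_lt_card_iff_nontrivial.mp (by omega)
    have hdvd : p ∣ Nat.card (alternatingGroup α) := by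
      have h1 : p ∣ (Fintype.card α).factorial := hpp.dvd_factorial.mpr (by omega)
      rw [← Nat.card_eq_fintype_card, ← Nat.card_perm, ← two_mul_nat_card_alternatingGroup] at h1
      rcases hpp.dvd_mul.mp h1 with h | h
      · exact absurd ((Nat.prime_dvd_prime_iff_eq hpp Nat.prime_two).mp h) hp
      · exact h
    obtain ⟨⟨z, hz⟩, hord⟩ := exists_prime_orderOf_dvd_card' p (P.dvd_card_of_dvd_card hdvd)
    rw [Subgroup.orderOf_mk] at hord
    refine even_index_of_conj_inv P hz (fun h => ?_) (alt_isConj_inv ?_)
    · have := Nat.le_of_dvd (by norm_num) (orderOf_dvd_of_pow_eq_one h)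
      have := hpp.two_le
      omega
    rw [centralizer_le_alternating_iff]
    rintro ⟨-, hsum, hcount⟩
    have hord' : orderOf (z : Perm α) = p := by rw [Subgroup.orderOf_coe, hord]
    obtain ⟨k, hk⟩ := cycleType_prime_order (hord'.symm ▸ hpp)
    rw [hord'] at hk
    have hk0 : k = 0 := by
      have := hcount p
      rw [hk, Multiset.count_replicate_self] at this
      omega
    rw [hk, hk0, Multiset.sum_replicate] at hsum
    simp at hsum
    omega
  · right
    have hle : Nat.card (P : Subgroup (alternatingGroup α)) ∣ p := by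
      obtain ⟨j, hj⟩ := IsPGroup.iff_card.mp P.isPGroup'
      have h1 : p ^ j ∣ (Fintype.card α).factorial := by
        rw [← hj, ← Nat.card_eq_fintype_card, ← Nat.card_perm]
        exact (Subgroup.card_subgroup_dvd_card _).trans (Subgroup.card_subgroup_dvd_card _)
      have h2 := (hpp.pow_dvd_iff_le_factorization (Nat.factorial_ne_zero _)).mp h1
      have h3 : (Fintype.card α).factorial.factorization p ≤ 1 := by
        have hd : (Fintype.card α).factorial ∣ (p * 1 + 1).factorial := Nat.factorial_dvd_factorial (by omega)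
        refine ((Nat.factorization_le_iff_dvd (Nat.factorial_ne_zero _) (Nat.factorial_ne_zero _)).mpr hd p).trans ?_
        rw [Nat.factorization_def _ hpp, padicValNat_factorial_mul_add _ hpp.one_lt, padicValNat_factorial_mul,
          Nat.factorial_one, padicValNat.one]
      rw [hj]
      calc p ^ j ∣ p ^ 1 := pow_dvd_pow p (h2.trans h3)
        _ = p := pow_one p
    rcases (Nat.dvd_prime hpp).mp hle with h | h
    · haveI := (Nat.card_eq_one_iff_unique.mp h).1
      infer_instance
    · exact isCyclic_of_prime_card h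

theorem alt_two_five (P : Sylow 2 (alternatingGroup (Fin 5))) :
    ((Subgroup.centralizer ((P : Subgroup (alternatingGroup (Fin 5))) : Set (alternatingGroup (Fin 5)))).subgroupOf
      (Subgroup.normalizer ((P : Subgroup (alternatingGroup (Fin 5))) : Set (alternatingGroup (Fin 5))))).index = 3 ∧
      IsKleinFour (P : Subgroup (alternatingGroup (Fin 5))) := by
  let a : alternatingGroup (Fin 5) := ⟨swap 0 1 * swap 2 3, mem_alternatingGroup.mpr (by decide +kernel)⟩
  let b : alternatingGroup (Fin 5) := ⟨swap 0 2 * swap 1 3, mem_alternatingGroup.mpr (by decide +kernel)⟩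
  let V : Subgroup (alternatingGroup (Fin 5)) :=
    { carrier := (({1, a, b, a * b} : Finset (alternatingGroup (Fin 5))) : Set (alternatingGroup (Fin 5)))
      mul_mem' := by
        intro x y hx hy
        simp only [Finset.mem_coe] at hx hy ⊢
        revert x y
        decide +kernel
      one_mem' := by simp
      inv_mem' := by
        intro x hx
        simp only [Finset.mem_coe] at hx ⊢
        revert x
        decide +kernel }
  have hVmem : ∀ x, x ∈ V ↔ x ∈ ({1, a, b, a * b} : Finset (alternatingGroup (Fin 5))) := fun x => Iff.rfl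
  have hV : Nat.card V = 4 := by
    rw [Nat.card_congr (Equiv.subtypeEquivRight hVmem), Nat.card_eq_fintype_card, Fintype.card_coe]
    decide +kernel
  have hA : Nat.card (alternatingGroup (Fin 5)) = 60 := by
    rw [Nat.card_eq_fintype_card]
    decide +kernel
  have hfac : (Nat.card (alternatingGroup (Fin 5))).factorization 2 = 2 := by
    rw [hA, Nat.factorization_def _ Nat.prime_two, show (60 : ℕ) = 2 ^ 2 * 15 by norm_num,
      padicValNat.mul (by norm_num) (by norm_num), padicValNat.prime_pow, padicValNat.eq_zero_of_not_dvd (by norm_num)]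
  let Q : Sylow 2 (alternatingGroup (Fin 5)) := Sylow.ofCard V (by rw [hV, hfac]; rfl)
  obtain ⟨g, hg⟩ := MulAction.exists_smul_eq (alternatingGroup (Fin 5)) Q P
  have hPV : ∀ x, x ∈ (P : Subgroup (alternatingGroup (Fin 5))) ↔
      g⁻¹ * x * g ∈ ({1, a, b, a * b} : Finset (alternatingGroup (Fin 5))) := by
    intro x
    rw [← hg, Sylow.coe_subgroup_smul, Subgroup.mem_pointwise_smul_iff_inv_smul_mem, MulAut.smul_def,
      ← map_inv, MulAut.conj_apply, inv_inv]
    exact hVmem _
  have hP4 : Nat.card (P : Subgroup (alternatingGroup (Fin 5))) = 4 := by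
    rw [P.card_eq_multiplicity, hfac]
    rfl
  -- transport of normaliser and centraliser to `V`
  let cj : alternatingGroup (Fin 5) ≃ alternatingGroup (Fin 5) := (MulAut.conj g⁻¹).toEquiv
  have hcj : ∀ x, cj x = g⁻¹ * x * g := fun x => by simp [cj]
  have hN : Nat.card (Subgroup.normalizer ((P : Subgroup (alternatingGroup (Fin 5))) : Set (alternatingGroup (Fin 5)))) = 12 := by
    rw [Nat.card_congr (Equiv.subtypeEquiv (q := fun x => ∀ v, v ∈ ({1, a, b, a * b} : Finset (alternatingGroup (Fin 5))) ↔
      x * v * x⁻¹ ∈ ({1, a, b, a * b} : Finset (alternatingGroup (Fin 5)))) cj fun x => ?_)]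
    · rw [Nat.card_eq_fintype_card]
      decide +kernel
    · rw [Subgroup.mem_normalizer_iff]
      refine ⟨fun h v => ?_, fun h v => ?_⟩
      · have := h (g * v * g⁻¹)
        simp only [hPV] at this
        convert this using 2 <;> (first | (simp only [hcj]; group) | group)
      · have := h (g⁻¹ * v * g)
        simp only [hPV]
        convert this using 2
        simp only [hcj]
        group
  have hCc : Nat.card (Subgroup.centralizer ((P : Subgroup (alternatingGroup (Fin 5))) : Set (alternatingGroup (Fin 5)))) = 4 := by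
    rw [Nat.card_congr (Equiv.subtypeEquiv (q := fun x => ∀ v ∈ ({1, a, b, a * b} : Finset (alternatingGroup (Fin 5))),
      v * x = x * v) cj fun x => ?_)]
    · rw [Nat.card_eq_fintype_card]
      decide +kernel
    · rw [Subgroup.mem_centralizer_iff]
      refine ⟨fun h v hv => ?_, fun h v hv => ?_⟩
      · have := congrArg (fun y => g⁻¹ * y * g) (h (g * v * g⁻¹) (by rw [SetLike.mem_coe, hPV]; convert hv using 1; group))
        simp only [hcj]
        convert this using 1 <;> group
      · have := congrArg (fun y => g * y * g⁻¹) (h (g⁻¹ * v * g) ((hPV v).mp hv))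
        simp only [hcj] at this
        convert this using 1 <;> group
  constructor
  · have hle : Subgroup.centralizer ((P : Subgroup (alternatingGroup (Fin 5))) : Set (alternatingGroup (Fin 5))) ≤
        Subgroup.normalizer ((P : Subgroup (alternatingGroup (Fin 5))) : Set (alternatingGroup (Fin 5))) := by
      intro x hx
      rw [Subgroup.mem_centralizer_iff] at hx
      rw [Subgroup.mem_normalizer_iff]
      intro v
      refine ⟨fun hv => ?_, fun hv => ?_⟩
      · rw [← hx v hv, mul_assoc, mul_inv_cancel, mul_one]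
        exact hv
      · have h1 := hx _ hv
        rw [inv_mul_cancel_right] at h1
        have h2 : x * v * x⁻¹ = v := mul_left_cancel (a := x) (by rw [← h1])
        rwa [h2] at hv
    have h := Subgroup.index_mul_card ((Subgroup.centralizer ((P : Subgroup (alternatingGroup (Fin 5))) : Set (alternatingGroup (Fin 5)))).subgroupOf
      (Subgroup.normalizer ((P : Subgroup (alternatingGroup (Fin 5))) : Set (alternatingGroup (Fin 5)))))
    rw [Nat.card_congr (Subgroup.subgroupOfEquivOfLe hle).toEquiv, hCc, hN] at h
    omega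
  · refine { card_four := hP4, exponent_two := ?_ }
    haveI : Nontrivial (P : Subgroup (alternatingGroup (Fin 5))) := Finite.one_lt_card_iff_nontrivial.mp (by omega)
    refine (Nat.prime_two.eq_one_or_self_of_dvd _ (Monoid.exponent_dvd_of_forall_pow_eq_one ?_)).resolve_left
      (Monoid.exp_eq_one_iff.not.mpr (not_subsingleton _))
    rintro ⟨x, hx⟩
    apply Subtype.ext
    rw [SubmonoidClass.coe_pow, OneMemClass.coe_one]
    have hall : ∀ v ∈ ({1, a, b, a * b} : Finset (alternatingGroup (Fin 5))), v ^ 2 = 1 := by decide +kernel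
    have := hall _ ((hPV x).mp hx)
    have e : g⁻¹ * x ^ 2 * g = (g⁻¹ * x * g) ^ 2 := by rw [pow_two, pow_two]; group
    rw [this] at e
    have := congrArg (fun y => g * y * g⁻¹) e
    simpa [mul_assoc] using this

theorem alt_two_big {n : ℕ} (hn : 6 ≤ n) (P : Sylow 2 (alternatingGroup (Fin n)))
    [IsMulCommutative (P : Subgroup (alternatingGroup (Fin n)))] : False := by
  -- `(0 1 2 3)(4 5)` and `(0 2)(4 5)` generate a non-abelian 2-group
  let a : alternatingGroup (Fin 6) := ⟨swap 0 3 * swap 0 2 * swap 0 1 * swap 4 5, mem_alternatingGroup.mpr (by decide +kernel)⟩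
  let b : alternatingGroup (Fin 6) := ⟨swap 0 2 * swap 4 5, mem_alternatingGroup.mpr (by decide +kernel)⟩
  let D : Subgroup (alternatingGroup (Fin 6)) :=
    { carrier := ((({1, a, a * a, a * a * a} : Finset (alternatingGroup (Fin 6))) ∪ {b, a * b, a * a * b, a * a * a * b} :
        Finset (alternatingGroup (Fin 6))) : Set (alternatingGroup (Fin 6)))
      mul_mem' := by
        intro x y hx hy
        simp only [Finset.mem_coe] at hx hy ⊢
        revert x y
        decide +kernel
      one_mem' := by simp
      inv_mem' := by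
        intro x hx
        simp only [Finset.mem_coe] at hx ⊢
        revert x
        decide +kernel }
  have hmem : ∀ x, x ∈ D ↔ x ∈ (({1, a, a * a, a * a * a} : Finset (alternatingGroup (Fin 6))) ∪
      {b, a * b, a * a * b, a * a * a * b}) := fun x => Iff.rfl
  have hD : IsPGroup 2 D := by
    refine IsPGroup.of_card (n := 3) ?_
    rw [Nat.card_congr (Equiv.subtypeEquivRight hmem), Nat.card_eq_fintype_card, Fintype.card_coe]
    decide +kernel
  let f : alternatingGroup (Fin 6) →* alternatingGroup (Fin n) :=
    { toFun := fun x => ⟨viaFintypeEmbedding (x : Perm (Fin 6)) (Fin.castLEEmb hn), by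
        rw [mem_alternatingGroup, viaFintypeEmbedding_sign]
        exact mem_alternatingGroup.mp x.2⟩
      map_one' := Subtype.ext (extendDomain_one _)
      map_mul' := fun x y => Subtype.ext (extendDomain_mul _ _ _).symm }
  have hf : Function.Injective f := by
    intro x y h
    apply Subtype.ext
    exact extendDomainHom_injective _ (congrArg Subtype.val h)
  obtain ⟨Q, hQ⟩ := (hD.map f).exists_le_sylow
  obtain ⟨g, hg⟩ := MulAction.exists_smul_eq (alternatingGroup (Fin n)) Q P
  have hin : ∀ x ∈ D, g * f x * g⁻¹ ∈ (P : Subgroup (alternatingGroup (Fin n))) := by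
    intro x hx
    rw [← hg, Sylow.coe_subgroup_smul, Subgroup.mem_pointwise_smul_iff_inv_smul_mem, MulAut.smul_def,
      ← map_inv, MulAut.conj_apply, inv_inv]
    have : f x ∈ (Q : Subgroup (alternatingGroup (Fin n))) := hQ ⟨x, hx, rfl⟩
    convert this using 1
    group
  have ha : a ∈ D := by rw [hmem]; decide +kernel
  have hb : b ∈ D := by rw [hmem]; decide +kernel
  have h := setLike_mul_comm (hin a ha) (hin b hb)
  have h2 : a * b = b * a := by
    apply hf
    rw [map_mul, map_mul]
    have := congrArg (fun y => g⁻¹ * y * g) h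
    simpa [mul_assoc] using this
  revert h2
  decide +kernel

end Cfsg.Agent.Lib.AbelianSylowNC
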