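import Cfsg.Agent.Lib.Perm.AltDerangeNum
import Cfsg.Agent.S0713

/-!
Maximal subgroups of groups between an alternating and a symmetric group miss the conjugates
of some element whose order is the largest prime divisor of their index.
-/

set_option autoImplicit false

namespace Cfsg.Agent.Lib.Perm.AltDerange

open Equiv Equiv.Perm MulAction
open scoped Pointwise

variable {m : ℕ}

theorem exists_alt_perm (hm : 5 ≤ m) {D E : Finset (Fin m)} (h : D.card = E.card) :
    ∃ σ ∈ alternatingGroup (Fin m), D.image σ = E := by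
  classical
  obtain ⟨σ, hσ⟩ : ∃ σ : Perm (Fin m), ∀ x, σ x ∈ E ↔ x ∈ D := by
    let e₁ : {x // x ∈ D} ≃ {x // x ∈ E} := Fintype.equivOfCardEq (by simpa using h)
    let e₂ : {x // ¬ x ∈ D} ≃ {x // ¬ x ∈ E} := Fintype.equivOfCardEq (by
      simp [Fintype.card_subtype_compl, h])
    refine ⟨Equiv.subtypeCongr e₁ e₂, fun x => ?_⟩
    by_cases hx : x ∈ D
    · simp [Equiv.subtypeCongr, Equiv.sumCompl_symm_apply_of_pos, hx]
    · simp [Equiv.subtypeCongr, Equiv.sumCompl_symm_apply_of_neg, hx, (e₂ ⟨x, hx⟩).2]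
  have himg : ∀ τ : Perm (Fin m), (∀ x, τ x ∈ E ↔ x ∈ D) → D.image τ = E := by
    intro τ hτ
    ext y
    rw [Finset.mem_image]
    refine ⟨fun ⟨x, hx, he⟩ => he ▸ (hτ x).2 hx, fun hy => ⟨τ.symm y, ?_, τ.apply_symm_apply y⟩⟩
    rw [← hτ, τ.apply_symm_apply]; exact hy
  by_cases hs : σ ∈ alternatingGroup (Fin m)
  · exact ⟨σ, hs, himg σ hσ⟩
  obtain ⟨a, b, hab, hiff⟩ : ∃ a b : Fin m, a ≠ b ∧ (a ∈ D ↔ b ∈ D) := by
    obtain ⟨a, b, hab, he⟩ := Fintype.exists_ne_map_eq_of_card_lt (fun x : Fin m => decide (x ∈ D))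
      (by simp; omega)
    exact ⟨a, b, hab, by simpa using he⟩
  refine ⟨σ * swap a b, ?_, himg _ fun x => ?_⟩
  · rw [mem_alternatingGroup, map_mul, sign_swap hab]
    rw [mem_alternatingGroup] at hs
    rcases Int.units_eq_one_or (sign σ) with h1 | h1
    · exact absurd h1 hs
    · rw [h1]; rfl
  · rw [Perm.mul_apply, hσ, swap_apply_def]
    split_ifs with h1 h2 <;> simp [*]

/-- The even permutation consisting of `c` cycles of length `r`. -/
theorem exists_cycles {r c : ℕ} (hr : r.Prime) (hcm : c * r ≤ m) (hev : r ≠ 2 ∨ Even c) :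
    ∃ g ∈ alternatingGroup (Fin m), g.cycleType = Multiset.replicate c r := by
  classical
  obtain ⟨g, hg⟩ := (exists_with_cycleType_iff (Fin m)).2
    (⟨by simpa using hcm, fun a ha => by rw [Multiset.eq_of_mem_replicate ha]; exact hr.two_le⟩ :
      (Multiset.replicate c r).sum ≤ Fintype.card (Fin m) ∧ ∀ a ∈ Multiset.replicate c r, 2 ≤ a)
  refine ⟨g, ?_, hg⟩
  rw [mem_alternatingGroup, sign_of_cycleType, hg, Multiset.sum_replicate, Multiset.card_replicate, smul_eq_mul]
  refine Even.neg_one_pow ?_
  rcases hev with h | h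
  · rw [← Nat.mul_succ]
    exact ((hr.odd_of_ne_two h).add_one).mul_left c
  · exact (h.mul_right r).add h

theorem orderOf_of_cycles {r c : ℕ} (hc : 0 < c) {g : Perm (Fin m)}
    (hg : g.cycleType = Multiset.replicate c r) : orderOf g = r := by
  obtain ⟨d, rfl⟩ := Nat.exists_eq_add_one.2 hc
  rw [← lcm_cycleType, hg]
  clear hg hc
  induction d with
  | zero => simp
  | succ d ih => rw [Multiset.replicate_succ, Multiset.lcm_cons, ih]; exact Nat.lcm_self r

/-- A cycle of big prime length is a cycle. -/
theorem isCycle_of_big {p : ℕ} (hp : p.Prime) (hbig : m < 2 * p) {g : Perm (Fin m)} (hg : orderOf g = p) :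
    g.IsCycle ∧ g.support.card = p := by
  classical
  obtain ⟨k, hk⟩ := cycleType_prime_order (σ := g) (by rw [hg]; exact hp)
  rw [hg] at hk
  have h1 : g.support.card = (k + 1) * p := by
    rw [← sum_cycleType, hk, Multiset.sum_replicate, smul_eq_mul]
  have h2 : g.support.card ≤ m := by simpa using Finset.card_le_univ g.support
  have hk0 : k = 0 := by
    by_contra hk0
    have := Nat.mul_le_mul_right p (show 2 ≤ k + 1 by omega)
    omega
  subst hk0
  exact ⟨card_cycleType_eq_one.1 (by rw [hk]; simp), by simpa using h1⟩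

/-- An element of big prime order has no fixed block system. -/
theorem no_big_of_block {H : Subgroup (Perm (Fin m))} [IsPretransitive ↥H (Fin m)] {B : Set (Fin m)}
    (hB : IsBlock ↥H B) (hBnt : B.Nontrivial) (hBne : B ≠ Set.univ) {p : ℕ} (hp : p.Prime)
    (hbig : m < 2 * p) {g : Perm (Fin m)} (hg : g ∈ H) : orderOf g ≠ p := by
  classical
  intro ho
  obtain ⟨hcyc, hsupp⟩ := isCycle_of_big hp hbig ho
  obtain ⟨x, hx⟩ := hcyc.nonempty_support
  obtain ⟨b, hb⟩ := hBnt.nonempty
  obtain ⟨t, ht⟩ := MulAction.exists_smul_eq ↥H b x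
  set C := t • B with hC
  have hCb : IsBlock ↥H C := hB.translate t
  have hxC : x ∈ C := ht ▸ Set.smul_mem_smul_set hb
  have hCcard : C.ncard = B.ncard := Set.ncard_image_of_injective _ (MulAction.injective t)
  have hCdvd : C.ncard ∣ m := by
    have := hCb.ncard_dvd_card ⟨x, hxC⟩
    rwa [Nat.card_eq_fintype_card, Fintype.card_fin] at this
  have hClt : C.ncard < m := by
    rw [hCcard]
    have := Set.ncard_lt_ncard (Set.ssubset_univ_iff.2 hBne) Set.finite_univ
    rwa [Set.ncard_univ, Nat.card_eq_fintype_card, Fintype.card_fin] at this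
  have hCp : C.ncard < p := by
    obtain ⟨d, hd⟩ := hCdvd
    have : 2 ≤ d := by
      rcases d with _ | _ | d
      · omega
      · omega
      · omega
    have := Nat.mul_le_mul_left C.ncard this
    omega
  have hC2 : 1 < C.ncard := by
    rw [hCcard]
    exact (Set.one_lt_ncard (Set.toFinite _)).2 hBnt
  have hfix : (⟨g, hg⟩ : ↥H) • C = C := by
    obtain ⟨y, hyC, hyx⟩ := Set.exists_ne_of_one_lt_ncard hC2 x
    by_cases hy : g y = y
    · refine hCb.smul_eq_of_mem (a := y) hyC ?_
      show g y ∈ C
      rw [hy]; exact hyC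
    · obtain ⟨i, hi⟩ := hcyc.exists_zpow_eq (mem_support.1 hx) hy
      have hs : (⟨g, hg⟩ : ↥H) ^ i ∈ MulAction.stabilizer ↥H C := by
        refine MulAction.mem_stabilizer_iff.2 (hCb.smul_eq_of_mem (a := x) hxC ?_)
        show ((((⟨g, hg⟩ : ↥H) ^ i : ↥H)) : Perm (Fin m)) x ∈ C
        rw [SubgroupClass.coe_zpow]
        show (g ^ i) x ∈ C
        rw [hi]; exact hyC
      have hcop : IsCoprime i (p : ℤ) := by
        refine ((Nat.prime_iff_prime_int.1 hp).coprime_iff_not_dvd.2 ?_).symm
        rintro ⟨l, rfl⟩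
        apply hyx
        rw [← hi, zpow_mul, zpow_natCast, ← ho, pow_orderOf_eq_one, one_zpow, Perm.one_apply]
      obtain ⟨a, c, hac⟩ := hcop
      have hgp : (⟨g, hg⟩ : ↥H) ^ (p : ℤ) = 1 := Subtype.ext (by
        rw [SubgroupClass.coe_zpow]
        show g ^ (p : ℤ) = 1
        rw [zpow_natCast, ← ho, pow_orderOf_eq_one])
      have : (⟨g, hg⟩ : ↥H) ∈ MulAction.stabilizer ↥H C := by
        have := zpow_mem hs a
        rw [← zpow_mul, mul_comm] at this
        have he : (⟨g, hg⟩ : ↥H) ^ (a * i) = ⟨g, hg⟩ := by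
          have h' : a * i = 1 - c * (p : ℤ) := by linarith
          rw [h', sub_eq_add_neg, zpow_add, zpow_one, zpow_neg, mul_comm c, zpow_mul, hgp, one_zpow, inv_one, mul_one]
        rwa [he] at this
      exact MulAction.mem_stabilizer_iff.1 this
  have hinv : ∀ z, g z ∈ C ↔ z ∈ C := fun z => by
    constructor
    · intro hz
      rw [← hfix] at hz
      obtain ⟨w, hw, hwz⟩ := hz
      rwa [← g.injective hwz]
    · intro hz
      rw [← hfix]
      exact ⟨z, hz, rfl⟩
  set σ := g.subtypePerm (p := fun z => z ∈ C) hinv with hσdef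
  have hσp : σ ^ p = 1 := by
    rw [hσdef, subtypePerm_pow]
    ext z
    simp [show g ^ p = 1 by rw [← ho]; exact pow_orderOf_eq_one g]
  have hσ1 : σ = 1 := by
    by_contra hne
    haveI := Fact.mk hp
    have h1 : orderOf σ = p := orderOf_eq_prime hσp hne
    obtain ⟨k, hk⟩ := cycleType_prime_order (σ := σ) (by rw [h1]; exact hp)
    rw [h1] at hk
    have h2 : σ.support.card ≤ C.ncard := by
      rw [← Nat.card_coe_set_eq, Nat.card_eq_fintype_card]
      exact Finset.card_le_univ _
    rw [← sum_cycleType, hk, Multiset.sum_replicate, smul_eq_mul, Nat.succ_mul] at h2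
    omega
  refine mem_support.1 hx ?_
  exact congrArg Subtype.val (DFunLike.congr_fun hσ1 ⟨x, hxC⟩)

/-- Fixed points of an element of prime order on an invariant set. -/
theorem card_mod_le {r : ℕ} (hr : r.Prime) {g : Perm (Fin m)} (ho : orderOf g = r) {D : Finset (Fin m)}
    (hD : ∀ x, g x ∈ D ↔ x ∈ D) : D.card % r ≤ m - g.support.card := by
  classical
  haveI := Fact.mk hr
  set σ := g.subtypePerm (p := fun z => z ∈ D) hD with hσdef
  have hσp : σ ^ r ^ 1 = 1 := by
    rw [pow_one, hσdef, subtypePerm_pow]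
    ext z
    simp [show g ^ r = 1 by rw [← ho]; exact pow_orderOf_eq_one g]
  have h1 : D.card ≡ Fintype.card (Function.fixedPoints σ) [MOD r] := by
    let φ : Perm {z // z ∈ D} →* Function.End {z // z ∈ D} :=
      { toFun := fun e => ⇑e, map_one' := rfl, map_mul' := fun _ _ => rfl }
    have hφ : φ σ ^ r ^ 1 = 1 := by rw [← map_pow, hσp, map_one]
    have := Equiv.Perm.card_fixedPoints_modEq (p := r) (n := 1) hφ
    rw [Fintype.card_coe] at this
    exact this.trans (congrArg (· % r) (Fintype.card_congr (Equiv.refl _)))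
  have h2 : Fintype.card (Function.fixedPoints σ) ≤ g.supportᶜ.card := by
    rw [← Fintype.card_coe g.supportᶜ]
    refine Fintype.card_le_of_injective (fun z => ⟨z.1.1, ?_⟩) ?_
    · rw [Finset.mem_compl, notMem_support]
      exact congrArg Subtype.val z.2
    · intro z w hzw
      exact Subtype.ext (Subtype.ext (congrArg Subtype.val hzw :))
  rw [Finset.card_compl, Fintype.card_fin] at h2
  rw [Nat.ModEq] at h1
  rw [h1]
  exact (Nat.mod_le _ _).trans h2

theorem orderOf_conj' {G : Type*} [Group G] (f : G →* Perm (Fin m)) (hf : Function.Injective f)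
    (hcard : ∀ g h : G, (f (h⁻¹ * g * h)).cycleType = (f g).cycleType) (g h : G) :
    orderOf (h⁻¹ * g * h) = orderOf g := by
  rw [← orderOf_injective f hf, ← orderOf_injective f hf g, ← lcm_cycleType, ← lcm_cycleType, hcard]

theorem exists_conj_mem {G : Type*} [Group G] [Finite G] {p : ℕ} (hp : p.Prime) {M : Subgroup G}
    (h : ¬ p ∣ M.index) {g : G} (hg : orderOf g = p) : ∃ h : G, h⁻¹ * g * h ∈ M := by
  haveI := Fact.mk hp
  have hP : IsPGroup p (Subgroup.zpowers g) := IsPGroup.of_card (n := 1) (by rw [Nat.card_zpowers, hg, pow_one])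
  rw [Subgroup.index_eq_card] at h
  obtain ⟨x, hx⟩ := hP.nonempty_fixed_point_of_prime_not_dvd_card (G ⧸ M) h
  obtain ⟨a, rfl⟩ := QuotientGroup.mk_surjective x
  have h1 : ((g * a : G) : G ⧸ M) = (a : G ⧸ M) := hx ⟨g, Subgroup.mem_zpowers g⟩
  rw [eq_comm, QuotientGroup.eq, ← mul_assoc] at h1
  exact ⟨a, h1⟩

/-- A maximal subgroup not containing the alternating group misses every conjugate of some element
of order the largest prime divisor of its index. -/
theorem exists_avoiding {G : Type*} [Group G] [Finite G] (hm : 5 ≤ m) (f : G →* Perm (Fin m))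
    (hf : Function.Injective f) (hA : alternatingGroup (Fin m) ≤ f.range) {M : Subgroup G}
    (hM : IsCoatom M) (hnot : ¬ alternatingGroup (Fin m) ≤ M.map f) {r : ℕ} (hr : r.Prime)
    (hrd : r ∣ M.index) (hmax : ∀ s : ℕ, s.Prime → s ∣ M.index → s ≤ r) :
    ∃ g : G, orderOf g = r ∧ ∀ h : G, h⁻¹ * g * h ∉ M := by
  classical
  set H := M.map f with hH
  have hordf : ∀ g : G, orderOf (f g) = orderOf g := fun g => orderOf_injective f hf g
  have hmem : ∀ g : G, f g ∈ H ↔ g ∈ M := fun g => Subgroup.mem_map_iff_mem hf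
  have hpre : ∀ {τ : Perm (Fin m)}, τ ∈ alternatingGroup (Fin m) → ∃ g, f g = τ := fun {τ} h => hA h
  have hcard : ∀ g : G, ∀ h : G, (f (h⁻¹ * g * h)).cycleType = (f g).cycleType := fun g h => by
    rw [map_mul, map_mul, map_inv]
    conv_lhs => rw [← inv_inv (f h)]
    rw [inv_inv (f h)⁻¹]
    simpa using cycleType_conj (σ := f g) (τ := (f h)⁻¹)
  -- primes which cannot divide the order of `M`
  have hbigr : ∀ p : ℕ, p.Prime → p ≤ m → m < 2 * p → (∀ g ∈ H, orderOf g ≠ p) → p ∣ M.index := by
    intro p hp hpm hbig hno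
    haveI := Fact.mk hp
    obtain ⟨τ, hτ, hτc⟩ := exists_cycles (m := m) (c := 1) hp (by omega) (Or.inl (by omega))
    obtain ⟨g, rfl⟩ := hpre hτ
    by_contra hd
    obtain ⟨h, hh⟩ := exists_conj_mem hp hd (g := g) (by rw [← hordf]; exact orderOf_of_cycles Nat.one_pos hτc)
    exact hno _ ((hmem _).2 hh) (orderOf_of_cycles Nat.one_pos ((hcard g h).trans hτc))
  have hrG : r ∣ Nat.card G := hrd.trans M.index_dvd_card
  by_cases htr : IsPretransitive ↥H (Fin m)
  · haveI := htr
    by_cases hprim : IsPreprimitive ↥H (Fin m)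
    · -- primitive case
      have h3 : 3 ∣ M.index := by
        haveI := Fact.mk Nat.prime_three
        obtain ⟨τ, hτ, hτc⟩ := exists_cycles (m := m) (c := 1) Nat.prime_three (by omega) (Or.inl (by omega))
        obtain ⟨g, rfl⟩ := hpre hτ
        by_contra hd
        obtain ⟨h, hh⟩ := exists_conj_mem Nat.prime_three hd (g := g)
          (by rw [← hordf]; exact orderOf_of_cycles Nat.one_pos hτc)
        refine hnot (alternatingGroup_le_of_isPreprimitive_of_isThreeCycle_mem hprim ?_ ((hmem _).2 hh))
        show _ = _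
        rw [hcard, hτc, Multiset.replicate_one]
      have hr3 : 3 ≤ r := hmax 3 Nat.prime_three h3
      have hrm : r ≤ m := by
        have hd : r ∣ m.factorial := by
          refine hrG.trans ((Subgroup.card_dvd_of_injective f hf).trans (dvd_of_eq ?_))
          rw [Nat.card_perm, Nat.card_eq_fintype_card, Fintype.card_fin]
        exact hr.dvd_factorial.1 hd
      rcases le_or_gt (r + 3) m with hr' | hr'
      · obtain ⟨τ, hτ, hτc⟩ := exists_cycles (m := m) (c := 1) hr (by omega) (Or.inl (by omega))
        obtain ⟨g, rfl⟩ := hpre hτ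
        refine ⟨g, by rw [← hordf]; exact orderOf_of_cycles Nat.one_pos hτc, fun h hh => hnot ?_⟩
        have hc := (hcard g h).trans hτc
        refine Cfsg.Agent.S0713.result H hprim hr (by simpa using hm) (by simpa using hr') ?_ ?_ ((hmem _).2 hh)
        · exact card_cycleType_eq_one.1 (by rw [hc]; simp)
        · rw [← sum_cycleType, hc]; simp
      · haveI := Fact.mk hr
        obtain ⟨g, hg⟩ := exists_prime_orderOf_dvd_card' r hrG
        refine ⟨g, hg, fun h hh => ?_⟩
        have hrM : r ∣ Nat.card M := by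
          refine hg ▸ ?_
          rw [← orderOf_conj' f hf hcard g h]
          exact Subgroup.orderOf_dvd_natCard _ hh
        have h2 : r * r ∣ m.factorial := by
          refine ((Nat.mul_dvd_mul hrM hrd).trans (dvd_of_eq M.card_mul_index)).trans
            ((Subgroup.card_dvd_of_injective f hf).trans (dvd_of_eq ?_))
          rw [Nat.card_perm, Nat.card_eq_fintype_card, Fintype.card_fin]
        rw [← sq, hr.pow_dvd_iff_le_factorization (Nat.factorial_ne_zero m)] at h2
        have hlog : Nat.log r m < 2 := by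
          refine Nat.log_lt_of_lt_pow (by omega) ?_
          have := Nat.mul_le_mul_right r (show 2 ≤ r by omega)
          rw [sq]; omega
        rw [Nat.factorization_factorial hr hlog, show Finset.Ico 1 2 = ({1} : Finset ℕ) from rfl,
          Finset.sum_singleton, pow_one] at h2
        have h3' := Nat.div_mul_le_self m r
        have := Nat.mul_le_mul_right r h2
        omega
    · -- imprimitive case
      obtain ⟨B, hB, hBnt, hBne⟩ : ∃ B : Set (Fin m), IsBlock ↥H B ∧ B.Nontrivial ∧ B ≠ Set.univ := by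
        by_contra hcon
        push Not at hcon
        refine hprim ⟨fun {B} hB => ?_⟩
        rcases B.subsingleton_or_nontrivial with h | h
        · exact Or.inl h
        · exact Or.inr (hcon B hB h)
      have hno : ∀ p : ℕ, p.Prime → m < 2 * p → ∀ g ∈ H, orderOf g ≠ p := fun p hp hbig g hg =>
        no_big_of_block hB hBnt hBne hp hbig hg
      obtain ⟨p, hp, hp1, hp2⟩ := Nat.exists_prime_lt_and_le_two_mul (m / 2) (by omega)
      have hpr : p ≤ r := hmax p hp (hbigr p hp (by omega) (by omega) (hno p hp (by omega)))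
      haveI := Fact.mk hr
      obtain ⟨g, hg⟩ := exists_prime_orderOf_dvd_card' r hrG
      refine ⟨g, hg, fun h hh => hno r hr (by omega) _ ((hmem _).2 hh) ?_⟩
      rw [hordf]
      exact (orderOf_conj' f hf hcard g h).trans hg
  · -- intransitive case
    obtain ⟨D, hD0, hDinv⟩ : ∃ D : Finset (Fin m), (0 < D.card ∧ 2 * D.card ≤ m) ∧
        ∀ g ∈ H, ∀ x, g x ∈ D ↔ x ∈ D := by
      let x₀ : Fin m := ⟨0, by omega⟩
      let O : Finset (Fin m) := Finset.univ.filter fun y => y ∈ MulAction.orbit ↥H x₀
      have hOinv : ∀ g ∈ H, ∀ x, g x ∈ O ↔ x ∈ O := fun g hg x => by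
        simp only [O, Finset.mem_filter, Finset.mem_univ, true_and]
        rw [← MulAction.orbit_eq_iff, ← MulAction.orbit_eq_iff (a := x)]
        rw [show g x = (⟨g, hg⟩ : ↥H) • x from rfl, MulAction.orbit_smul]
      have hO0 : 0 < O.card := Finset.card_pos.2 ⟨x₀, by simp [O]⟩
      have hO1 : O.card < m := by
        refine lt_of_le_of_ne (by simpa using Finset.card_le_univ O) fun he => htr ?_
        have hu : O = Finset.univ := Finset.eq_univ_of_card O (by simpa using he)
        have hall : ∀ y, y ∈ MulAction.orbit ↥H x₀ := fun y => by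
          have : y ∈ O := hu ▸ Finset.mem_univ y
          simpa [O] using this
        refine ⟨fun a b => ?_⟩
        obtain ⟨u, hu⟩ := hall a
        obtain ⟨v, hv⟩ := hall b
        exact ⟨v * u⁻¹, by rw [mul_smul, ← hu, inv_smul_smul]; exact hv⟩
      by_cases h2 : 2 * O.card ≤ m
      · exact ⟨O, ⟨hO0, h2⟩, hOinv⟩
      · refine ⟨Oᶜ, ?_, fun g hg x => by simp only [Finset.mem_compl, hOinv g hg x]⟩
        rw [Finset.card_compl, Fintype.card_fin]
        omega
    letI : MulAction G (Fin m) := MulAction.compHom _ f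
    set S := MulAction.stabilizer G D with hS
    have hSmem : ∀ g : G, g ∈ S ↔ ∀ x, f g x ∈ D ↔ x ∈ D := fun g => by
      rw [hS, MulAction.mem_stabilizer_iff]
      constructor
      · intro he x
        conv_lhs => rw [← he]
        exact Finset.smul_mem_smul_finset_iff g
      · intro he
        refine Finset.ext fun y => ?_
        rw [Finset.mem_smul_finset]
        refine ⟨fun ⟨x, hx, hxy⟩ => hxy ▸ (he x).2 hx, fun hy => ⟨(f g).symm y, ?_, (f g).apply_symm_apply y⟩⟩
        rw [← he, (f g).apply_symm_apply]; exact hy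
    have hMS : M ≤ S := fun g hg => (hSmem g).2 (hDinv _ ((hmem g).2 hg))
    obtain ⟨E, hE⟩ : ∃ E : Finset (Fin m), E.card = D.card ∧ E ≠ D := by
      obtain ⟨a, ha⟩ := Finset.card_pos.1 hD0.1
      obtain ⟨b, hb⟩ : ∃ b, b ∉ D := by
        by_contra hall
        push Not at hall
        have : D.card = m := by rw [Finset.eq_univ_of_forall hall]; simp
        omega
      refine ⟨insert b (D.erase a), ?_, fun he => hb (he ▸ Finset.mem_insert_self b _)⟩
      rw [Finset.card_insert_of_notMem (fun h => hb (Finset.mem_of_mem_erase h)), Finset.card_erase_of_mem ha]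
      omega
    have hS' : S = M := by
      rcases eq_or_lt_of_le hMS with h | h
      · exact h.symm
      · exfalso
        obtain ⟨σ, hσ, hσD⟩ := exists_alt_perm hm hE.1.symm
        obtain ⟨g, rfl⟩ := hpre hσ
        have hg : g ∈ S := (hM.2 S h) ▸ Subgroup.mem_top g
        exact hE.2 (hσD.symm.trans (MulAction.mem_stabilizer_iff.1 hg))
    have horb : MulAction.orbit G D = {E : Finset (Fin m) | E.card = D.card} := by
      ext F
      constructor
      · rintro ⟨g, rfl⟩
        exact Finset.card_smul_finset g D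
      · intro hF
        obtain ⟨σ, hσ, hσD⟩ := exists_alt_perm hm (Eq.symm hF)
        obtain ⟨g, rfl⟩ := hpre hσ
        exact ⟨g, hσD⟩
    have hidx : M.index = m.choose D.card := by
      rw [← hS', hS, MulAction.index_stabilizer, horb]
      rw [← Nat.card_coe_set_eq, Nat.card_eq_fintype_card]
      rw [show Fintype.card {E : Finset (Fin m) | E.card = D.card} = Fintype.card {E : Finset (Fin m) // E.card = D.card} from
        Fintype.card_congr (Equiv.refl _), Fintype.card_finset_len, Fintype.card_fin]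
    rw [hidx] at hrd hmax
    set k := D.card with hk
    have hmod := mod_lt_mod hr (by omega) hrd (large_prime hm hD0.2 hr hmax)
    set c := m / r with hc
    have hev : r ≠ 2 ∨ Even c := by
      rcases eq_or_ne r 2 with rfl | h
      · refine Or.inr ?_
        rcases large_prime hm hD0.2 hr hmax with h1 | h1
        swap
        · omega
        have hk1 : k = 1 := by omega
        rw [hk1, Nat.choose_one_right] at hrd hmax
        by_contra hodd
        rw [Nat.not_even_iff_odd] at hodd
        have hc1 : c ≠ 1 := by omega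
        have hp := Nat.minFac_prime hc1
        have := hmax c.minFac hp ((Nat.minFac_dvd c).trans ⟨2, by rw [hc, Nat.div_mul_cancel hrd]⟩)
        have h2 : c.minFac = 2 := le_antisymm this hp.two_le
        exact Nat.not_even_iff_odd.2 hodd (even_iff_two_dvd.2 (h2 ▸ Nat.minFac_dvd c))
      · exact Or.inl h
    have hkr : r ≤ m := by
      refine hr.dvd_factorial.1 (hrd.trans ⟨k.factorial * (m - k).factorial, ?_⟩)
      rw [← Nat.choose_mul_factorial_mul_factorial (show k ≤ m by omega), mul_assoc]
    obtain ⟨τ, hτ, hτc⟩ := exists_cycles (m := m) (c := c) hr (Nat.div_mul_le_self m r) hev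
    obtain ⟨g, rfl⟩ := hpre hτ
    have hc0 : 0 < c := Nat.div_pos hkr hr.pos
    refine ⟨g, by rw [← hordf]; exact orderOf_of_cycles hc0 hτc, fun h hh => ?_⟩
    have hc' := (hcard g h).trans hτc
    have h1 := card_mod_le hr (orderOf_of_cycles hc0 hc') (hDinv _ ((hmem _).2 hh))
    rw [← sum_cycleType, hc', Multiset.sum_replicate, smul_eq_mul, ← hk] at h1
    have h2 := Nat.mod_add_div m r
    rw [hc, mul_comm] at h1
    omega

end Cfsg.Agent.Lib.Perm.AltDerange
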