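import Mathlib

/-!
A weak form of the theorem of Sylvester and Schur: the largest prime divisor `r` of a
binomial coefficient `m.choose k`, `2 * k ≤ m`, is bigger than `k` or has square bigger than `m`.
-/

set_option autoImplicit false

namespace Cfsg.Agent.Lib.Perm.AltDerange

open Nat Finset

theorem pow_mul_descFactorial_le {n k : ℕ} (hkn : k ≤ n) :
    ∀ i, i ≤ k → n ^ i * k.descFactorial i ≤ n.descFactorial i * k ^ i := by
  intro i
  induction i with
  | zero => simp
  | succ i ih =>
    intro hi
    rw [pow_succ, pow_succ, Nat.descFactorial_succ, Nat.descFactorial_succ]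
    have h1 : n * (k - i) ≤ (n - i) * k := by
      rw [Nat.mul_sub, Nat.sub_mul]
      have := Nat.mul_le_mul_right i hkn
      have h2 : i * k ≤ i * n := Nat.mul_le_mul_left i hkn
      have h3 : i * n = n * i := mul_comm _ _
      omega
    calc n ^ i * n * ((k - i) * k.descFactorial i)
        = n * (k - i) * (n ^ i * k.descFactorial i) := by ring
      _ ≤ (n - i) * k * (n.descFactorial i * k ^ i) := Nat.mul_le_mul h1 (ih (by omega))
      _ = (n - i) * n.descFactorial i * (k ^ i * k) := by ring

theorem pow_le_choose_mul {n k : ℕ} (hkn : k ≤ n) : n ^ k ≤ n.choose k * k ^ k := by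
  have h := pow_mul_descFactorial_le hkn k le_rfl
  rw [Nat.descFactorial_self, Nat.descFactorial_eq_factorial_mul_choose n k,
    mul_comm (k !) (n.choose k), mul_right_comm] at h
  exact Nat.le_of_mul_le_mul_right h k.factorial_pos

theorem choose_le_choose_right {m j k : ℕ} (hjk : j ≤ k) (hk : 2 * k ≤ m) : m.choose j ≤ m.choose k := by
  induction k, hjk using Nat.le_induction with
  | base => exact le_rfl
  | succ k hk' ih => exact (ih (by omega)).trans (Nat.choose_le_succ_of_lt_half_left (by omega))

theorem choose_le_pow {m k j : ℕ} (hm : 0 < m) (hkm : k ≤ m)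
    (h : ∀ s : ℕ, s.Prime → s ∣ m.choose k → s ≤ j) :
    m.choose k ≤ m ^ (Nat.primesBelow (j + 1)).card := by
  have hC : m.choose k ≠ 0 := (Nat.choose_pos hkm).ne'
  have hsub : (m.choose k).primeFactors ⊆ Nat.primesBelow (j + 1) := fun p hp => by
    rw [Nat.mem_primeFactors] at hp
    rw [Nat.primesBelow, Finset.mem_filter, Finset.mem_range]
    exact ⟨by have := h p hp.1 hp.2.1; omega, hp.1⟩
  calc m.choose k = ∏ p ∈ (m.choose k).primeFactors, p ^ (m.choose k).factorization p :=
        (Nat.prod_factorization_pow_eq_self hC).symm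
    _ ≤ m ^ (m.choose k).primeFactors.card :=
        Finset.prod_le_pow_card _ _ _ fun p _ => Nat.pow_factorization_choose_le hm
    _ ≤ m ^ (Nat.primesBelow (j + 1)).card := Nat.pow_le_pow_right hm (Finset.card_le_card hsub)

theorem two_mul_primes_lt {j : ℕ} (hj : 9 ≤ j) : 2 * (Nat.primesBelow (j + 1)).card < j := by
  set A := (Finset.range ((j + 1) / 2)).image (fun i => 2 * i + 1) with hA
  have hsub : Nat.primesBelow (j + 1) ⊆ insert 2 (A \ {1, 9}) := by
    intro p hp
    rw [Nat.primesBelow, Finset.mem_filter, Finset.mem_range] at hp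
    rcases hp.2.eq_two_or_odd' with rfl | ⟨i, rfl⟩
    · exact Finset.mem_insert_self _ _
    refine Finset.mem_insert_of_mem (Finset.mem_sdiff.2 ⟨Finset.mem_image.2 ⟨i, Finset.mem_range.2 (by omega), rfl⟩, ?_⟩)
    rw [Finset.mem_insert, Finset.mem_singleton]
    rintro (h | h)
    · exact hp.2.ne_one h
    · rw [h] at hp; exact absurd hp.2 (by norm_num)
  have h1 : ({1, 9} : Finset ℕ) ⊆ A := by
    intro x hx
    rw [Finset.mem_insert, Finset.mem_singleton] at hx
    rcases hx with rfl | rfl
    · exact Finset.mem_image.2 ⟨0, Finset.mem_range.2 (by omega), rfl⟩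
    · exact Finset.mem_image.2 ⟨4, Finset.mem_range.2 (by omega), rfl⟩
  have h2 := (Finset.card_le_card hsub).trans (Finset.card_insert_le _ _)
  rw [Finset.card_sdiff_of_subset h1, hA, Finset.card_image_of_injective _ (fun a b h => by simpa using h),
    Finset.card_range, Finset.card_pair (by norm_num)] at h2
  omega

theorem small_case {m j c c' a b B F : ℕ} (h4 : (m + 1 - j) ^ j ≤ j ! * m ^ c') (hc : c' = c)
    (ha : a * m ≤ b * (m + 1 - j)) (hB : B ≤ m) (hF : j ! = F) (hcj : c ≤ j)
    (hnum : 0 < B ∧ b ^ j * F < a ^ j * B ^ (j - c)) : False := by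
  subst hc hF
  have h1 : a ^ j * m ^ (j - c') * m ^ c' ≤ b ^ j * j ! * m ^ c' := by
    rw [mul_assoc, ← pow_add, Nat.sub_add_cancel hcj, ← mul_pow, mul_assoc]
    refine (Nat.pow_le_pow_left ha j).trans ?_
    rw [mul_pow]
    exact Nat.mul_le_mul_left _ h4
  have h2 := Nat.le_of_mul_le_mul_right h1 (Nat.pow_pos (by omega))
  have h3 := Nat.mul_le_mul_left (a ^ j) (Nat.pow_le_pow_left hB (j - c'))
  omega

/-- Not all prime divisors of `m.choose j` are at most `j` if `j ^ 2 ≤ m`. -/
theorem lt_choose {m j : ℕ} (hm : 5 ≤ m) (hj : 2 ≤ j) (hj2 : j * j ≤ m) :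
    m ^ (Nat.primesBelow (j + 1)).card < m.choose j := by
  have hjm : j ≤ m := le_trans (by nlinarith) hj2
  rcases le_or_gt 9 j with h9 | h9
  · have hc := two_mul_primes_lt h9
    set c := (Nat.primesBelow (j + 1)).card
    have h1 : m ^ j ≤ m.choose j * j ^ j := pow_le_choose_mul hjm
    by_contra hcon
    push Not at hcon
    have h2 : (m ^ j) ^ 2 ≤ m ^ (2 * c) * m ^ j := by
      calc (m ^ j) ^ 2 ≤ (m ^ c * j ^ j) ^ 2 :=
            Nat.pow_le_pow_left (h1.trans (Nat.mul_le_mul_right _ hcon)) 2
        _ = m ^ (2 * c) * (j * j) ^ j := by rw [mul_pow, ← pow_mul, ← pow_mul, mul_comm c 2, mul_comm j 2, pow_mul j 2 j, sq j]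
        _ ≤ m ^ (2 * c) * m ^ j := Nat.mul_le_mul_left _ (Nat.pow_le_pow_left hj2 j)
    rw [sq, ← pow_add, ← pow_add] at h2
    have := (Nat.pow_le_pow_iff_right (show 1 < m by omega)).1 h2
    omega
  · by_contra hcon
    push Not at hcon
    have h3 : m.descFactorial j ≤ j ! * m ^ (Nat.primesBelow (j + 1)).card := by
      rw [Nat.descFactorial_eq_factorial_mul_choose]
      exact Nat.mul_le_mul_left _ hcon
    have h4 : (m + 1 - j) ^ j ≤ j ! * m ^ (Nat.primesBelow (j + 1)).card :=
      (Nat.pow_sub_le_descFactorial m j).trans h3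
    interval_cases j
    · rw [show (Nat.primesBelow (2 + 1)).card = 1 by decide] at h3
      norm_num [Nat.descFactorial_succ, Nat.factorial] at h3
      obtain ⟨t, rfl⟩ : ∃ t, m = t + 5 := ⟨m - 5, by omega⟩
      simp only [show t + 5 - 1 = t + 4 by omega] at h3
      nlinarith
    · rw [show (Nat.primesBelow (3 + 1)).card = 2 by decide] at h3
      norm_num [Nat.descFactorial_succ, Nat.factorial] at h3
      obtain ⟨t, rfl⟩ : ∃ t, m = t + 9 := ⟨m - 9, by omega⟩
      simp only [show t + 9 - 1 = t + 8 by omega, show t + 9 - 2 = t + 7 by omega] at h3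
      nlinarith
    · exact small_case (c := 2) (a := 13) (b := 16) (B := 16) (F := 24) h4 (by decide) (by omega) (by omega) (by decide) (by norm_num) (by norm_num)
    · exact small_case (c := 3) (a := 21) (b := 25) (B := 25) (F := 120) h4 (by decide) (by omega) (by omega) (by decide) (by norm_num) (by norm_num)
    · exact small_case (c := 3) (a := 31) (b := 36) (B := 36) (F := 720) h4 (by decide) (by omega) (by omega) (by decide) (by norm_num) (by norm_num)
    · exact small_case (c := 4) (a := 43) (b := 49) (B := 49) (F := 5040) h4 (by decide) (by omega) (by omega) (by decide) (by norm_num) (by norm_num)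
    · exact small_case (c := 4) (a := 57) (b := 64) (B := 64) (F := 40320) h4 (by decide) (by omega) (by omega) (by decide) (by norm_num) (by norm_num)

theorem not_dvd_choose_small {p a b : ℕ} (hp : p.Prime) (ha : a < p) (hb : b ≤ a) : ¬ p ∣ a.choose b :=
  fun h => by
    have h1 : p ∣ a ! := by
      rw [← Nat.choose_mul_factorial_mul_factorial hb]
      exact dvd_mul_of_dvd_left (dvd_mul_of_dvd_left h _) _
    have := hp.dvd_factorial.1 h1
    omega

/-- The largest prime divisor `r` of `m.choose k` is bigger than `k`, or its square is bigger than `m`. -/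
theorem large_prime {m k r : ℕ} (hm : 5 ≤ m) (hk : 2 * k ≤ m) (hr : r.Prime)
    (hmax : ∀ s : ℕ, s.Prime → s ∣ m.choose k → s ≤ r) : k < r ∨ m < r * r := by
  by_contra hcon
  push Not at hcon
  obtain ⟨h1, h2⟩ := hcon
  set j := min k (Nat.sqrt m) with hj
  have hrj : r ≤ j := le_min h1 (Nat.le_sqrt.2 h2)
  have hjm : j * j ≤ m := (Nat.mul_le_mul (min_le_right _ _) (min_le_right _ _)).trans (Nat.sqrt_le m)
  have h3 := choose_le_pow (m := m) (k := k) (j := j) (by omega) (by omega)
    (fun s hs hd => (hmax s hs hd).trans hrj)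
  exact absurd ((choose_le_choose_right (min_le_left _ _) hk).trans h3)
    (not_le.2 (lt_choose hm (hr.two_le.trans hrj) hjm))

/-- A base digit of `k` exceeds the digit of `m`. -/
theorem mod_lt_mod {m k r : ℕ} (hr : r.Prime) (hkm : k ≤ m) (hd : r ∣ m.choose k)
    (h : k < r ∨ m < r * r) : m % r < k % r := by
  by_contra hcon
  push Not at hcon
  haveI := Fact.mk hr
  have h1 : r ∣ (m % r).choose (k % r) * (m / r).choose (k / r) :=
    ((Choose.choose_modEq_choose_mod_mul_choose_div_nat (n := m) (k := k) (p := r)).dvd_iff dvd_rfl).1 hd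
  rcases hr.dvd_mul.1 h1 with h2 | h2
  · exact not_dvd_choose_small hr (Nat.mod_lt _ hr.pos) hcon h2
  · rcases h with h | h
    · rw [Nat.div_eq_of_lt h, Nat.choose_zero_right, Nat.dvd_one] at h2
      exact hr.ne_one h2
    · exact not_dvd_choose_small hr (Nat.div_lt_of_lt_mul h) (Nat.div_le_div_right hkm) h2

end Cfsg.Agent.Lib.Perm.AltDerange
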