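import Cfsg.Agent.Lib.Perm.AltDerange

/-!
The symmetric group of degree six has no subgroups of order 15, 30 or 45.
-/

set_option autoImplicit false

namespace Cfsg.Agent.Lib.Perm.AltDerange

open Equiv Equiv.Perm

/-- A 5-cycle on six points. -/
def fiveCycle : Perm (Fin 6) := List.formPerm [0, 1, 2, 3, 4]

set_option maxRecDepth 20000 in
theorem fiveCycle_spec : fiveCycle ^ 5 = 1 ∧ fiveCycle ≠ 1 ∧ ∀ x : Perm (Fin 6), x ^ 3 = 1 →
    (x * fiveCycle = fiveCycle * x ∨ x * fiveCycle = fiveCycle ^ 2 * x ∨
      x * fiveCycle = fiveCycle ^ 3 * x ∨ x * fiveCycle = fiveCycle ^ 4 * x) → x = 1 := by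
  decide +kernel

/-- On six points no element of order 3 normalises a group of order 5. -/
theorem not_normalize {x y : Perm (Fin 6)} (hx : orderOf x = 3) (hy : orderOf y = 5)
    (h : x * y * x⁻¹ ∈ Subgroup.zpowers y) : False := by
  obtain ⟨h5, h1, hall⟩ := fiveCycle_spec
  haveI := Fact.mk (show Nat.Prime 5 by norm_num)
  set w := fiveCycle
  have hw : orderOf w = 5 := orderOf_eq_prime h5 h1
  have hc : y.cycleType = w.cycleType := by
    have hyc := isCycle_of_big (show Nat.Prime 5 by norm_num) (m := 6) (by norm_num) hy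
    have hwc := isCycle_of_big (show Nat.Prime 5 by norm_num) (m := 6) (by norm_num) hw
    rw [hyc.1.cycleType, hwc.1.cycleType, hyc.2, hwc.2]
  obtain ⟨c, hcy⟩ := isConj_iff.1 (isConj_iff_cycleType_eq.2 hc)
  have h' : (c * x * c⁻¹) * w * (c * x * c⁻¹)⁻¹ ∈ Subgroup.zpowers w := by
    rw [← hcy, show c * x * c⁻¹ * (c * y * c⁻¹) * (c * x * c⁻¹)⁻¹ = MulAut.conj c (x * y * x⁻¹) by
      simp [mul_assoc]]
    have := Subgroup.mem_map_of_mem (MulAut.conj c).toMonoidHom h
    rwa [MonoidHom.map_zpowers] at this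
  set x' := c * x * c⁻¹ with hx'
  have hx3 : x' ^ 3 = 1 := by
    rw [hx', conj_pow, ← hx, pow_orderOf_eq_one, mul_one, mul_inv_cancel]
  have hfin : IsOfFinOrder w := isOfFinOrder_of_finite w
  rw [← hfin.mem_powers_iff_mem_zpowers, hfin.mem_powers_iff_mem_range_orderOf, hw, Finset.mem_image] at h'
  obtain ⟨i, hi, hiw⟩ := h'
  rw [Finset.mem_range] at hi
  have hxw : x' * w = w ^ i * x' := by rw [hiw]; group
  have hx1 : x' ≠ 1 := by
    intro he
    rw [hx', mul_inv_eq_one] at he
    have : x = 1 := mul_left_cancel (he.trans (mul_one c).symm)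
    rw [this, orderOf_one] at hx
    omega
  refine hx1 (hall x' hx3 ?_)
  interval_cases i
  · rw [pow_zero, one_mul] at hxw
    exact absurd (mul_left_cancel (hxw.trans (mul_one x').symm)) h1
  · left; rwa [pow_one] at hxw
  · right; left; exact hxw
  · right; right; left; exact hxw
  · right; right; right; exact hxw

/-- Groups of order 30 have subgroups of index 2. -/
theorem exists_index_two {H : Type*} [Group H] [Finite H] (h : Nat.card H = 30) :
    ∃ K : Subgroup H, Nat.card K = 15 := by
  classical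
  haveI := Fintype.ofFinite H
  haveI := Fact.mk Nat.prime_two
  obtain ⟨t, ht⟩ := exists_prime_orderOf_dvd_card' (G := H) 2 (by rw [h]; norm_num)
  let φ : H →* ℤˣ := sign.comp (MulAction.toPermHom H H)
  set σ := MulAction.toPermHom H H t with hσ
  have hσo : orderOf σ = 2 := by
    rw [hσ, orderOf_injective _ MulAction.toPerm_injective, ht]
  obtain ⟨k, hk⟩ := cycleType_prime_order (σ := σ) (by rw [hσo]; norm_num)
  rw [hσo] at hk
  have hsupp : σ.support = Finset.univ := Finset.eq_univ_of_forall fun x => by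
    rw [mem_support]
    intro hx
    have : t = 1 := mul_right_cancel (hx.trans (one_mul x).symm)
    rw [this, orderOf_one] at ht
    omega
  have hk15 : k + 1 = 15 := by
    have := sum_cycleType σ
    rw [hk, Multiset.sum_replicate, smul_eq_mul, hsupp, Finset.card_univ, ← Nat.card_eq_fintype_card, h] at this
    omega
  have hsgn : φ t = -1 := by
    show sign σ = -1
    rw [sign_of_cycleType, hk, hk15]
    rfl
  refine ⟨φ.ker, ?_⟩
  have hidx : φ.ker.index = 2 := by
    rw [Subgroup.index_ker]
    have : φ.range = ⊤ := by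
      rw [eq_top_iff]
      intro u _
      rcases Int.units_eq_one_or u with rfl | rfl
      · exact φ.range.one_mem
      · exact ⟨t, hsgn⟩
    rw [this, Subgroup.card_top, Nat.card_eq_fintype_card]
    rfl
  have := φ.ker.card_mul_index
  rw [hidx, h] at this
  omega

theorem no_subgroup_odd {H : Type*} [Group H] [Finite H] (f : H →* Perm (Fin 6)) (hf : Function.Injective f)
    (hH : Nat.card H = 15 ∨ Nat.card H = 45) : False := by
  haveI := Fact.mk (show Nat.Prime 5 by norm_num)
  haveI := Fact.mk Nat.prime_three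
  obtain ⟨x, hx⟩ := exists_prime_orderOf_dvd_card' (G := H) 3 (by rcases hH with h | h <;> rw [h] <;> norm_num)
  obtain ⟨y, hy⟩ := exists_prime_orderOf_dvd_card' (G := H) 5 (by rcases hH with h | h <;> rw [h] <;> norm_num)
  obtain ⟨P, hyP⟩ := (IsPGroup.of_card (p := 5) (n := 1) (by rw [Nat.card_zpowers, hy, pow_one]) :
    IsPGroup 5 (Subgroup.zpowers y)).exists_le_sylow
  have hPc : Nat.card (P : Subgroup H) = 5 := by
    obtain ⟨e, he⟩ := IsPGroup.iff_card.1 P.isPGroup'
    have h1 := (P : Subgroup H).card_subgroup_dvd_card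
    have h2 := Subgroup.card_dvd_of_le hyP
    rw [Nat.card_zpowers, hy, he] at h2
    rw [he] at h1 ⊢
    rcases hH with h | h <;> rw [h] at h1 <;> (rcases e with _ | _ | e) <;>
      first
        | (norm_num at h2; done)
        | (norm_num; done)
        | (exfalso; have := (dvd_mul_left (5 ^ 2) (5 ^ e)).trans ((pow_add 5 e 2).symm ▸ h1); norm_num at this)
  have h2 := P.card_dvd_index
  have h4 := (P : Subgroup H).card_mul_index
  have h1 := card_sylow_modEq_one 5 H
  rw [hPc] at h4
  have h3 : (P : Subgroup H).index ∣ 9 := by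
    rcases hH with h | h <;> rw [h] at h4
    · exact ⟨3, by omega⟩
    · exact ⟨1, by omega⟩
  have hc : Nat.card (Sylow 5 H) = 1 := by
    have h6 := h2.trans h3
    have h5 : Nat.card (Sylow 5 H) ≤ 9 := Nat.le_of_dvd (by norm_num) h6
    rw [Nat.ModEq] at h1
    interval_cases (Nat.card (Sylow 5 H)) <;> revert h1 h6 <;> decide
  haveI : Subsingleton (Sylow 5 H) := (Nat.card_eq_one_iff_unique.1 hc).1
  have hPn : (P : Subgroup H).Normal := P.normal_of_subsingleton
  have hPz : Subgroup.zpowers y = (P : Subgroup H) := Subgroup.eq_of_le_of_card_ge hyP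
    (by rw [hPc, Nat.card_zpowers, hy])
  refine not_normalize (x := f x) (y := f y) (by rw [orderOf_injective f hf, hx])
    (by rw [orderOf_injective f hf, hy]) ?_
  rw [← map_inv, ← map_mul, ← map_mul, ← MonoidHom.map_zpowers]
  exact Subgroup.mem_map_of_mem f (hPz ▸ hPn.conj_mem y (hPz ▸ Subgroup.mem_zpowers y) x)

/-- No group of permutations of six points has order 15, 30 or 45. -/
theorem no_subgroup {H : Type*} [Group H] [Finite H] (f : H →* Perm (Fin 6)) (hf : Function.Injective f)
    (hH : Nat.card H = 15 ∨ Nat.card H = 30 ∨ Nat.card H = 45) : False := by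
  rcases hH with h | h | h
  · exact no_subgroup_odd f hf (Or.inl h)
  · obtain ⟨K, hK⟩ := exists_index_two h
    exact no_subgroup_odd (f.comp K.subtype) (hf.comp K.subtype_injective) (Or.inl hK)
  · exact no_subgroup_odd f hf (Or.inr h)

end Cfsg.Agent.Lib.Perm.AltDerange
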