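import Cfsg.Agent.Lib.Perm.Basic
import Mathlib.Data.Rat.Defs
import Mathlib.Algebra.Order.Field.Rat
import Mathlib.Algebra.BigOperators.Field
import Mathlib.Data.Finset.Prod
import Mathlib.GroupTheory.GroupAction.MultipleTransitivity
import Mathlib.Tactic.FieldSimp
import Mathlib.Tactic.Linarith
import Mathlib.Tactic.LinearCombination
import Mathlib.Tactic.Ring

/-!
Counting derangements of doubly transitive groups through the two-point stabiliser.
-/

set_option autoImplicit false
set_option linter.unusedSectionVars false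

namespace Cfsg.Agent.Lib.Perm.Derange

open MulAction Finset

variable (G : Type*) [Group G] [Fintype G] [DecidableEq G] {X : Type*} [Fintype X] [DecidableEq X]
  [MulAction G X]

/-- The fixed points of an element. -/
def fixF {G : Type*} [Group G] [MulAction G X] (g : G) : Finset X := univ.filter fun x => g • x = x

/-- The stabiliser of two points. -/
def pairF (a b : X) : Finset G := univ.filter fun g => g • a = a ∧ g • b = b

/-- The fixed points of the stabiliser of two points. -/
def lineF (a b : X) : Finset X := univ.filter fun x => ∀ g ∈ pairF G a b, g • x = x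

/-- The number of orbits of the stabiliser of two points. -/
noncomputable def orbN (a b : X) : ℕ :=
  Nat.card (orbitRel.Quotient ↥(stabilizer G a ⊓ stabilizer G b) X)

/-- The weight of an element. -/
def wgt {G : Type*} [Group G] [MulAction G X] (g : G) : ℚ :=
  ((Fintype.card X : ℚ) - #(fixF (X := X) g)) / #(fixF (X := X) g)

variable {G}

theorem mem_fixF {g : G} {x : X} : x ∈ fixF g ↔ g • x = x := by simp [fixF]

theorem mem_pairF {g : G} {a b : X} : g ∈ pairF G a b ↔ g • a = a ∧ g • b = b := by simp [pairF]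

theorem mem_lineF {a b x : X} : x ∈ lineF G a b ↔ ∀ g ∈ pairF G a b, g • x = x := by simp [lineF]

theorem card_fixedBy_eq (g : G) : Nat.card (fixedBy X g) = #(fixF (X := X) g) := by
  rw [Nat.card_eq_fintype_card, ← Set.toFinset_card]
  congr 1; ext x; simp [fixF]

theorem card_fixF_conj (h g : G) : #(fixF (X := X) (h * g * h⁻¹)) = #(fixF (X := X) g) := by
  have : fixF (X := X) (h * g * h⁻¹) = (fixF g).map (MulAction.toPerm h).toEmbedding := by
    ext x
    simp only [mem_map_equiv, mem_fixF, MulAction.toPerm_symm_apply]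
    rw [mul_smul, mul_smul, smul_eq_iff_eq_inv_smul]
  rw [this, card_map]

theorem sum_swap (w : G → ℚ) :
    ∑ g : G, ((#(fixF (X := X) g) : ℚ) * (#(fixF (X := X) g) - 1)) * w g =
      ∑ p ∈ (univ : Finset X).offDiag, ∑ g ∈ pairF G p.1 p.2, w g := by
  rw [Finset.sum_comm' (t' := (univ : Finset G)) (s' := fun g => (fixF (X := X) g).offDiag) (by
    intro p g; simp [pairF, fixF]; tauto)]
  refine Finset.sum_congr rfl fun g _ => ?_
  rw [Finset.sum_const, Finset.offDiag_card, nsmul_eq_mul, Nat.cast_sub (Nat.le_mul_self _), Nat.cast_mul]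
  ring

section Two

variable [h2 : IsMultiplyPretransitive G X 2]

theorem exists_move {a b c d : X} (hab : a ≠ b) (hcd : c ≠ d) : ∃ g : G, g • a = c ∧ g • b = d :=
  is_two_pretransitive_iff.mp h2 hab hcd

theorem sum_pairF_eq {a b c d : X} (hab : a ≠ b) (hcd : c ≠ d) (w : G → ℚ)
    (hw : ∀ h g : G, w (h * g * h⁻¹) = w g) :
    ∑ g ∈ pairF G c d, w g = ∑ g ∈ pairF G a b, w g := by
  obtain ⟨h, hc, hd⟩ := exists_move (G := G) hab hcd
  refine Finset.sum_nbij' (fun g => h⁻¹ * g * h) (fun g => h * g * h⁻¹) (fun g hg => ?_) (fun g hg => ?_)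
    (fun g _ => by simp [mul_assoc]) (fun g _ => by simp [mul_assoc]) (fun g _ => ?_)
  · simp only [Finset.mem_coe, mem_pairF] at hg ⊢
    simp [mul_smul, hc, hd, hg.1, hg.2, inv_smul_eq_iff]
  · simp only [Finset.mem_coe, mem_pairF] at hg ⊢
    rw [← hc, ← hd]
    simp [mul_smul, hg.1, hg.2]
  · rw [← hw h (h⁻¹ * g * h)]
    congr 1; group

theorem card_pairF_eq {a b c d : X} (hab : a ≠ b) (hcd : c ≠ d) :
    #(pairF G c d) = #(pairF G a b) := by
  have := sum_pairF_eq (G := G) hab hcd (fun _ => (1 : ℚ)) (fun _ _ => rfl)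
  simpa using this

theorem sum_offDiag {a b : X} (hab : a ≠ b) (w : G → ℚ) (hw : ∀ h g : G, w (h * g * h⁻¹) = w g) :
    ∑ p ∈ (univ : Finset X).offDiag, ∑ g ∈ pairF G p.1 p.2, w g =
      (#((univ : Finset X).offDiag) : ℚ) * ∑ g ∈ pairF G a b, w g := by
  rw [Finset.sum_congr rfl (fun p hp => sum_pairF_eq (G := G) (a := a) (b := b) hab
    ((Finset.mem_offDiag.mp hp).2.2) w hw), Finset.sum_const, nsmul_eq_mul]

theorem card_group {a b : X} (hab : a ≠ b) :
    Fintype.card G = #((univ : Finset X).offDiag) * #(pairF G a b) := by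
  rw [← Finset.card_univ, Finset.card_eq_sum_card_fiberwise (f := fun g : G => (g • a, g • b))
    (t := (univ : Finset X).offDiag) (by intro g _; simp [hab])]
  refine (Finset.sum_congr rfl fun p hp => ?_).trans (by rw [Finset.sum_const, smul_eq_mul])
  obtain ⟨h, hc, hd⟩ := exists_move (G := G) hab (show p.1 ≠ p.2 by simpa using hp)
  refine Finset.card_nbij' (fun g => h⁻¹ * g) (fun g => h * g) (fun g hg => ?_) (fun g hg => ?_)
    (fun g _ => by simp) (fun g _ => by simp)
  · simp only [Finset.coe_filter, Finset.mem_univ, true_and, Set.mem_ofPred_eq, Prod.ext_iff] at hg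
    rw [Finset.mem_coe, mem_pairF]
    simp [mul_smul, hg.1, hg.2, inv_smul_eq_iff, hc, hd]
  · rw [Finset.mem_coe, mem_pairF] at hg
    simp [mul_smul, hg.1, hg.2, hc, hd]

/-- The basic identity for derangements. -/
theorem derangement_identity [IsPretransitive G X] {a b : X} (hab : a ≠ b) :
    (Fintype.card X : ℚ) * #(univ.filter fun g : G => fixF (X := X) g = ∅) = Fintype.card G +
      (Fintype.card X : ℚ) * (Fintype.card X - 1) * ∑ g ∈ pairF G a b, wgt (X := X) g := by
  set n := (Fintype.card X : ℚ)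
  let f : G → ℚ := fun g => #(fixF (X := X) g)
  have hN : Fintype.card G = #((univ : Finset X).offDiag) * #(pairF G a b) := card_group hab
  have hoff : (#((univ : Finset X).offDiag) : ℚ) = n * (n - 1) := by
    rw [Finset.offDiag_card, Nat.cast_sub (Nat.le_mul_self _), Nat.cast_mul, Finset.card_univ]
    ring
  have h2sum : ∑ g : G, f g * (f g - 1) = Fintype.card G := by
    have := sum_swap (G := G) (X := X) (fun _ => 1)
    simp only [mul_one] at this
    rw [this, sum_offDiag hab (fun _ => (1 : ℚ)) (fun _ _ => rfl), hN]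
    simp
  have h1sum : ∑ g : G, f g = Fintype.card G := by
    have := sum_fixedBy (G := G) (X := X)
    rw [Nat.card_eq_one_iff_unique.mpr ⟨(pretransitive_iff_subsingleton_quotient G X).mp inferInstance,
      ⟨Quotient.mk'' a⟩⟩, one_mul, Nat.card_eq_fintype_card] at this
    simp only [f, ← card_fixedBy_eq]
    exact_mod_cast this
  have hw : ∀ g : G, (f g - 1) * (n - f g) + (if fixF (X := X) g = ∅ then n else 0) =
      (f g * (f g - 1)) * wgt (X := X) g := by
    intro g
    by_cases hg : fixF (X := X) g = ∅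
    · simp [f, hg]
    · rw [if_neg hg]
      have hne : f g ≠ 0 := by simpa [f] using hg
      simp only [wgt]
      show (f g - 1) * (n - f g) + 0 = f g * (f g - 1) * ((n - f g) / f g)
      field_simp
      ring
  have hs := Finset.sum_congr rfl (fun g (_ : g ∈ (univ : Finset G)) => hw g)
  rw [sum_swap (G := G) (X := X) (wgt (X := X)),
    sum_offDiag hab (wgt (X := X)) (fun h g => by simp only [wgt, card_fixF_conj]),
    hoff, Finset.sum_add_distrib, ← Finset.sum_filter,
    Finset.sum_const, nsmul_eq_mul] at hs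
  have hexp : ∑ g : G, (f g - 1) * (n - f g) = n * (∑ g : G, f g) - ∑ g : G, f g * (f g - 1) -
      n * Fintype.card G := by
    rw [Finset.mul_sum, ← Finset.sum_sub_distrib, ← Finset.card_univ, mul_comm n (_ : ℚ),
      ← nsmul_eq_mul, ← Finset.sum_const, ← Finset.sum_sub_distrib]
    refine Finset.sum_congr rfl fun g _ => ?_
    ring
  rw [hexp, h1sum, h2sum] at hs
  linear_combination hs

end Two

theorem wgt_one [Nonempty X] : wgt (X := X) (1 : G) = 0 := by
  simp [wgt, fixF]

theorem card_pairF_subgroup (a b : X) :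
    Nat.card ↥(stabilizer G a ⊓ stabilizer G b) = #(pairF G a b) := by
  classical
  rw [Nat.card_eq_fintype_card, ← Fintype.card_coe]
  exact Fintype.card_congr (Equiv.subtypeEquivRight fun g => by simp [pairF, Subgroup.mem_inf])

theorem sum_fix_pairF (a b : X) :
    ∑ g ∈ pairF G a b, #(fixF (X := X) g) = orbN G a b * #(pairF G a b) := by
  classical
  rw [orbN, ← card_pairF_subgroup, ← sum_fixedBy,
    Finset.sum_subtype (pairF G a b) (p := fun g => g ∈ stabilizer G a ⊓ stabilizer G b)
      (fun g => by simp [pairF, Subgroup.mem_inf])]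
  exact Finset.sum_congr rfl fun g _ => (card_fixedBy_eq (g : G)).symm

/-- The bound on the weights. -/
theorem sum_wgt_ge {a b : X} (hs : 2 ≤ #(pairF G a b)) (hab : a ≠ b)
    (h : 2 * orbN G a b ≤ Fintype.card X ∨
      ∀ g ∈ pairF G a b, g ≠ 1 → #(fixF (X := X) g) + orbN G a b ≤ Fintype.card X) :
    (#(pairF G a b) : ℚ) ≤ ∑ g ∈ pairF G a b, wgt (X := X) g := by
  have : Nonempty X := ⟨a⟩
  set n := (Fintype.card X : ℚ) with hn
  set s := (#(pairF G a b) : ℚ) with hs'
  set O := (orbN G a b : ℚ) with hO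
  have h1 : (1 : G) ∈ pairF G a b := by simp [pairF]
  rw [← Finset.add_sum_erase _ _ h1, wgt_one, zero_add]
  set E := (pairF G a b).erase 1 with hE
  have hnpos : 0 < n := by rw [hn]; exact_mod_cast Fintype.card_pos
  have hEc : (#E : ℚ) = s - 1 := by
    rw [hE, Finset.card_erase_of_mem h1, Nat.cast_sub (by omega)]; simp [hs']
  have hEf : ∑ g ∈ E, (#(fixF (X := X) g) : ℚ) = O * s - n := by
    have hh := sum_fix_pairF (G := G) a b
    rw [← Finset.add_sum_erase _ _ h1, show fixF (X := X) (1 : G) = univ by simp [fixF],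
      Finset.card_univ] at hh
    have hh' := congrArg (Nat.cast : ℕ → ℚ) hh
    push_cast at hh'
    rw [hO, hs', hn, hE]
    linarith
  have hfpos : ∀ g ∈ E, 2 ≤ #(fixF (X := X) g) := fun g hg => by
    obtain ⟨-, hg⟩ := Finset.mem_erase.mp hg
    rw [mem_pairF] at hg
    calc 2 = #({a, b} : Finset X) := (Finset.card_pair hab).symm
      _ ≤ _ := Finset.card_le_card (by simp [Finset.insert_subset_iff, mem_fixF, hg.1, hg.2])
  rcases h with h | h
  · have hb : ∀ g ∈ E, 3 - 4 * (#(fixF (X := X) g) : ℚ) / n ≤ wgt (X := X) g := by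
      intro g hg
      have h2 : (2 : ℚ) ≤ #(fixF (X := X) g) := by exact_mod_cast hfpos g hg
      rw [wgt, ← hn, le_div_iff₀ (by linarith)]
      have key : 0 ≤ (n - 2 * (#(fixF (X := X) g) : ℚ)) ^ 2 / n := div_nonneg (sq_nonneg _) hnpos.le
      have : (n - 2 * (#(fixF (X := X) g) : ℚ)) ^ 2 / n = n - #(fixF (X := X) g) -
          (3 - 4 * (#(fixF (X := X) g) : ℚ) / n) * #(fixF (X := X) g) := by
        field_simp
        ring
      linarith
    refine le_trans ?_ (Finset.sum_le_sum hb)
    rw [Finset.sum_sub_distrib, Finset.sum_const, nsmul_eq_mul, ← Finset.sum_div, ← Finset.mul_sum, hEc, hEf]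
    have hO2 : 2 * O ≤ n := by rw [hO, hn]; exact_mod_cast h
    have hs2 : (2 : ℚ) ≤ s := by rw [hs']; exact_mod_cast hs
    have : 4 * (O * s - n) / n ≤ 2 * s - 4 := by
      rw [div_le_iff₀ hnpos]
      nlinarith
    linarith
  · obtain ⟨g₀, hg₀⟩ : E.Nonempty := Finset.card_pos.mp (by
      rw [hE, Finset.card_erase_of_mem h1]; omega)
    have hM : 0 < n - O := by
      have h3 := h g₀ (Finset.mem_of_mem_erase hg₀) (Finset.ne_of_mem_erase hg₀)
      have h4 := hfpos g₀ hg₀
      have h5 : (orbN G a b : ℚ) + 2 ≤ Fintype.card X := by exact_mod_cast (show orbN G a b + 2 ≤ Fintype.card X by omega)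
      rw [hO, hn]; linarith
    have hb : ∀ g ∈ E, (n - #(fixF (X := X) g)) / (n - O) ≤ wgt (X := X) g := by
      intro g hg
      have h2 : (2 : ℚ) ≤ #(fixF (X := X) g) := by exact_mod_cast hfpos g hg
      have h3 : (#(fixF (X := X) g) : ℚ) + O ≤ n := by
        rw [hO, hn]; exact_mod_cast h g (Finset.mem_of_mem_erase hg) (Finset.ne_of_mem_erase hg)
      rw [wgt, ← hn]
      refine div_le_div_of_nonneg_left ?_ (by linarith) (by linarith)
      have : (#(fixF (X := X) g) : ℚ) ≤ n := by rw [hn]; exact_mod_cast Finset.card_le_univ _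
      linarith
    refine le_trans ?_ (Finset.sum_le_sum hb)
    rw [← Finset.sum_div, Finset.sum_sub_distrib, Finset.sum_const, nsmul_eq_mul, hEc, hEf,
      le_div_iff₀ hM]
    ring_nf
    rfl

/-- A group that is not doubly transitive. -/
theorem not_two [IsPretransitive G X] (h : ¬ IsMultiplyPretransitive G X 2) :
    2 * Fintype.card G ≤ Fintype.card X * #(univ.filter fun g : G => fixF (X := X) g = ∅) := by
  rw [is_two_pretransitive_iff] at h
  push Not at h
  obtain ⟨a, b, c, d, hab, hcd, hno⟩ := h
  let v : Fin 3 → orbitRel.Quotient G (X × X) := ![Quotient.mk'' (a, a), Quotient.mk'' (a, b), Quotient.mk'' (c, d)]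
  have hne : ∀ p q : X × X, (∀ g : G, g • q ≠ p) →
      (Quotient.mk'' p : orbitRel.Quotient G (X × X)) ≠ Quotient.mk'' q := by
    intro p q hpq e
    obtain ⟨g, hg⟩ := Quotient.exact' e
    exact hpq g hg
  have hv : Function.Injective v := by
    have e01 : v 0 ≠ v 1 := hne _ _ fun g e => hab (by
      simp only [Prod.ext_iff] at e
      exact smul_left_cancel g (e.1.trans e.2.symm))
    have e02 : v 0 ≠ v 2 := hne _ _ fun g e => hcd (by
      simp only [Prod.ext_iff] at e
      exact smul_left_cancel g (e.1.trans e.2.symm))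
    have e12 : v 1 ≠ v 2 := hne _ _ fun g e => by
      simp only [Prod.ext_iff] at e
      exact hno g⁻¹ (by rw [inv_smul_eq_iff]; exact e.1.symm) (by rw [inv_smul_eq_iff]; exact e.2.symm)
    intro i j e
    fin_cases i <;> fin_cases j
    all_goals first
      | rfl
      | exact absurd e e01
      | exact absurd e.symm e01
      | exact absurd e e02
      | exact absurd e.symm e02
      | exact absurd e e12
      | exact absurd e.symm e12
  have h3 : 3 * Fintype.card G ≤ ∑ g : G, #(fixF (X := X) g) * #(fixF (X := X) g) := by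
    have hs := sum_fixedBy (G := G) (X := X × X)
    rw [Finset.sum_congr rfl (fun g _ => (card_fixedBy_prod (Ω := X) (X := X) g))] at hs
    simp only [card_fixedBy_eq, Nat.card_eq_fintype_card (α := G)] at hs
    rw [hs]
    refine Nat.mul_le_mul_right _ ?_
    have := Nat.card_le_card_of_injective v hv
    simpa using this
  have h1 : ∑ g : G, #(fixF (X := X) g) = Fintype.card G := by
    have := sum_fixedBy (G := G) (X := X)
    rw [Nat.card_eq_one_iff_unique.mpr ⟨(pretransitive_iff_subsingleton_quotient G X).mp inferInstance,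
      ⟨Quotient.mk'' a⟩⟩, one_mul, Nat.card_eq_fintype_card] at this
    simpa only [card_fixedBy_eq] using this
  have key : ∀ g : G, #(fixF (X := X) g) * #(fixF (X := X) g) + Fintype.card X ≤
      (Fintype.card X + 1) * #(fixF (X := X) g) + Fintype.card X * (if fixF (X := X) g = ∅ then 1 else 0) := by
    intro g
    by_cases hg : fixF (X := X) g = ∅
    · simp [hg]
    · rw [if_neg hg, mul_zero, add_zero]
      have hp : 1 ≤ #(fixF (X := X) g) := Finset.card_pos.mpr (Finset.nonempty_iff_ne_empty.mpr hg)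
      have hle : #(fixF (X := X) g) ≤ Fintype.card X := Finset.card_le_univ _
      obtain ⟨m, hm⟩ := Nat.exists_eq_add_of_le hle
      rw [hm]
      nlinarith
  have hs := Finset.sum_le_sum (fun g (_ : g ∈ (univ : Finset G)) => key g)
  rw [Finset.sum_add_distrib, Finset.sum_add_distrib, ← Finset.mul_sum, ← Finset.mul_sum, h1,
    Finset.sum_const, Finset.card_univ, smul_eq_mul, Finset.sum_boole, Nat.cast_id] at hs
  nlinarith

end Cfsg.Agent.Lib.Perm.Derange
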