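import Cfsg.Agent.Lib.Perm.DerangeOrbits
import Mathlib.GroupTheory.Transfer
import Mathlib.GroupTheory.GroupAction.Jordan

/-!
The proportion of derangements in a transitive group.
-/

set_option autoImplicit false
set_option linter.unusedSectionVars false

namespace Cfsg.Agent.Lib.Perm.Derange

open MulAction Finset

variable {G : Type*} [Group G] [Fintype G] [DecidableEq G] {X : Type*} [Fintype X] [DecidableEq X]
  [MulAction G X] [FaithfulSMul G X] [h2 : IsMultiplyPretransitive G X 2]

theorem card_stab {a b : X} (hab : a ≠ b) :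
    Nat.card (stabilizer G a) = (Fintype.card X - 1) * #(pairF G a b) := by
  have hprim : IsPreprimitive G X := isPreprimitive_of_is_two_pretransitive h2
  have h1 : Nat.card G = Fintype.card X * ((Fintype.card X - 1) * #(pairF G a b)) := by
    rw [Nat.card_eq_fintype_card, card_group (G := G) hab, Finset.offDiag_card, Finset.card_univ,
      ← mul_assoc, Nat.mul_sub, mul_one]
  have h3 := (stabilizer G a).card_mul_index
  rw [index_stabilizer_of_transitive, Nat.card_eq_fintype_card (α := X), h1, mul_comm] at h3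
  exact Nat.eq_of_mul_eq_mul_left (Fintype.card_pos_iff.mpr ⟨a⟩) h3

theorem fix_two {a b : X} (hab : a ≠ b) (heven : Even (Fintype.card X))
    (hline : lineF G a b = {a, b}) (hsmall : ∀ x, #(orbF G a b x) ≤ 2)
    {g : G} (hg : g ∈ pairF G a b) (hg1 : g ≠ 1) : #(fixF (X := X) g) ≤ 2 := by
  classical
  by_contra hgt
  obtain ⟨x, hxg, hxab⟩ : ∃ x, x ∈ fixF (X := X) g ∧ x ∉ ({a, b} : Finset X) :=
    Finset.exists_mem_notMem_of_card_lt_card (lt_of_le_of_lt Finset.card_le_two (by omega))
  rw [mem_fixF] at hxg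
  obtain ⟨y, hgy⟩ : ∃ y, g • y ≠ y := by
    by_contra hno
    push Not at hno
    exact hg1 (eq_of_smul_eq_smul (α := X) fun z => by rw [hno z, one_smul])
  obtain ⟨h₀, hh₀, hh₀x⟩ : ∃ h₀ ∈ pairF G a b, h₀ • x ≠ x := by
    by_contra hno
    push Not at hno
    exact hxab (hline ▸ mem_lineF.mpr hno)
  obtain ⟨h, hh, hhy, hhx⟩ : ∃ h ∈ pairF G a b, h • y = y ∧ h • x ≠ x := by
    by_cases hy₀ : h₀ • y = y
    · exact ⟨h₀, hh₀, hy₀, hh₀x⟩
    · refine ⟨g * h₀, pairF_mul hg hh₀, ?_, fun e => hh₀x ?_⟩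
      · rw [mul_smul, ← moves_agree hsmall hg hh₀ hgy hy₀, ← mul_smul, invol_of_small hsmall g hg, one_smul]
      · rw [mul_smul] at e
        exact smul_left_cancel g (e.trans hxg.symm)
  -- the normal complement in the point stabiliser
  let Ga : Subgroup G := stabilizer G a
  let P : Subgroup Ga := (stabilizer G b).subgroupOf Ga
  have hPmem : ∀ z : Ga, z ∈ P ↔ (z : G) ∈ pairF G a b := fun z => by
    rw [Subgroup.mem_subgroupOf, mem_stabilizer_iff, mem_pairF]
    exact ⟨fun e => ⟨z.2, e⟩, fun e => e.2⟩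
  have hPcard : Nat.card P = #(pairF G a b) := by
    rw [← Fintype.card_coe, ← Nat.card_eq_fintype_card]
    exact Nat.card_congr
      { toFun := fun z => ⟨((z : Ga) : G), (hPmem z).mp z.2⟩
        invFun := fun z => ⟨⟨z, (mem_pairF.mp z.2).1⟩, (hPmem ⟨z, (mem_pairF.mp z.2).1⟩).mpr z.2⟩
        left_inv := fun _ => rfl
        right_inv := fun _ => rfl }
  have hidx : P.index = Fintype.card X - 1 := by
    have h1 := P.card_mul_index
    rw [hPcard, card_stab (G := G) hab, mul_comm (Fintype.card X - 1)] at h1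
    exact Nat.eq_of_mul_eq_mul_left (Finset.card_pos.mpr ⟨g, hg⟩) h1
  have hodd : (Fintype.card X - 1) % 2 = 1 := by
    have := Nat.even_iff.mp heven
    have : 0 < Fintype.card X := Fintype.card_pos_iff.mpr ⟨a⟩
    omega
  have hP2 : IsPGroup 2 P := fun z => ⟨1, Subtype.ext (Subtype.ext (by
    have := invol_of_small hsmall _ ((hPmem z).mp z.2)
    simpa [pow_two] using this))⟩
  let S : Sylow 2 Ga := hP2.toSylow (by rw [hidx]; omega)
  have hS : (S : Subgroup Ga) = P := rfl
  have hnorm : Subgroup.normalizer ((S : Subgroup Ga) : Set Ga) ≤ Subgroup.centralizer ((S : Subgroup Ga) : Set Ga) := by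
    intro z hz
    rw [hS] at hz ⊢
    have hzb : (z : G) • b ∈ lineF G a b := mem_lineF.mpr fun p hp => by
      have hp' : (⟨p, (mem_pairF.mp hp).1⟩ : Ga) ∈ P := (hPmem _).mpr hp
      have h1 := (Subgroup.mem_normalizer_iff''.mp hz _).mp hp'
      rw [hPmem] at h1
      have h2 := (mem_pairF.mp h1).2
      simp only [Subgroup.coe_mul, Subgroup.coe_inv, mul_smul, inv_smul_eq_iff] at h2
      exact h2
    rw [hline, Finset.mem_insert, Finset.mem_singleton] at hzb
    have hzP : (z : G) ∈ pairF G a b := mem_pairF.mpr ⟨z.2, hzb.resolve_left fun e =>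
      hab.symm (smul_left_cancel (z : G) (e.trans z.2.symm))⟩
    rw [Subgroup.mem_centralizer_iff]
    intro p hp
    exact Subtype.ext (commute_all hab hsmall hab ((hPmem p).mp hp) hzP)
  let R : Subgroup Ga := (MonoidHom.transferSylow S hnorm).ker
  have hcompl : Subgroup.IsComplement' R P := MonoidHom.ker_transferSylow_isComplement' S hnorm
  have hRcard : Nat.card R = Fintype.card X - 1 := by
    rw [← hidx]; exact hcompl.index_eq_card.symm
  have hRP : ∀ r, r ∈ R → r ∈ P → r = 1 := fun r h1 h2 =>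
    Subgroup.mem_bot.mp (hcompl.disjoint.le_bot ⟨h1, h2⟩)
  have hinj : ∀ r, r ∈ R → ∀ r', r' ∈ R → (r : G) • b = (r' : G) • b → r = r' := by
    intro r hr r' hr' e
    have h1 : r'⁻¹ * r ∈ P := (hPmem _).mpr (mem_pairF.mpr ⟨(r'⁻¹ * r).2, by
      simp [mul_smul, e, inv_smul_eq_iff]⟩)
    exact (inv_mul_eq_one.mp (hRP _ (R.mul_mem (R.inv_mem hr') hr) h1)).symm
  have hsurj : ∀ x : X, x ≠ a → ∃ r ∈ R, (r : G) • b = x := by
    intro x hx
    have hne : ∀ r : R, ((r : Ga) : G) • b ≠ a := fun r e =>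
      hab.symm (smul_left_cancel ((r : Ga) : G) (e.trans (r : Ga).2.symm))
    let φ : R → {z : X // z ≠ a} := fun r => ⟨((r : Ga) : G) • b, hne r⟩
    have hb : Function.Bijective φ := (Nat.bijective_iff_injective_and_card φ).mpr
      ⟨fun r r' e => Subtype.ext (hinj r r.2 r' r'.2 (congrArg Subtype.val e)), by
        rw [hRcard, Nat.card_eq_fintype_card, Fintype.card_subtype_compl, Fintype.card_subtype_eq]⟩
    obtain ⟨r, hr⟩ := hb.2 ⟨x, hx⟩
    exact ⟨r, r.2, congrArg Subtype.val hr⟩
  have hxa : x ≠ a := fun e => hxab (by simp [e])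
  have hya : y ≠ a := fun e => hgy (e ▸ (mem_pairF.mp hg).1)
  obtain ⟨r, hr, rfl⟩ := hsurj x hxa
  obtain ⟨r', hr', rfl⟩ := hsurj y hya
  let gA : Ga := ⟨g, (mem_pairF.mp hg).1⟩
  let hA : Ga := ⟨h, (mem_pairF.mp hh).1⟩
  have hact : ∀ p : Ga, p ∈ P → ∀ r : Ga, (p : G) • (r : G) • b = ((p * r * p⁻¹ : Ga) : G) • b := by
    intro p hp r
    have : (p : G)⁻¹ • b = b := (mem_pairF.mp (pairF_inv ((hPmem p).mp hp))).2
    simp [mul_smul, this]
  have hRn : ∀ p r : Ga, r ∈ R → p * r * p⁻¹ ∈ R := fun p r hr =>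
    Subgroup.Normal.conj_mem inferInstance r hr p
  have hgP : gA ∈ P := (hPmem _).mpr hg
  have hhP : hA ∈ P := (hPmem _).mpr hh
  have egr : gA * r * gA⁻¹ = r := hinj _ (hRn _ _ hr) _ hr (by rw [← hact gA hgP r]; exact hxg)
  have egr' : gA * r' * gA⁻¹ ≠ r' := fun e => hgy (by
    show (gA : G) • (r' : G) • b = _
    rw [hact gA hgP r', e])
  have ehr' : hA * r' * hA⁻¹ = r' := hinj _ (hRn _ _ hr') _ hr' (by rw [← hact hA hhP r']; exact hhy)
  have ehr : hA * r * hA⁻¹ ≠ r := fun e => hhx (by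
    show (hA : G) • (r : G) • b = _
    rw [hact hA hhP r, e])
  have eg : gA * (r * r') * gA⁻¹ = r * (gA * r' * gA⁻¹) := by
    calc gA * (r * r') * gA⁻¹ = (gA * r * gA⁻¹) * (gA * r' * gA⁻¹) := by group
      _ = _ := by rw [egr]
  have eh : hA * (r * r') * hA⁻¹ = (hA * r * hA⁻¹) * r' := by
    calc hA * (r * r') * hA⁻¹ = (hA * r * hA⁻¹) * (hA * r' * hA⁻¹) := by group
      _ = _ := by rw [ehr']
  have hm1 : g • ((r * r' : Ga) : G) • b ≠ ((r * r' : Ga) : G) • b := fun e => egr' (by
    have h1 := hinj _ (hRn _ _ (R.mul_mem hr hr')) _ (R.mul_mem hr hr') ((hact gA hgP (r * r')).symm.trans e)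
    rw [eg] at h1
    exact mul_left_cancel h1)
  have hm2 : h • ((r * r' : Ga) : G) • b ≠ ((r * r' : Ga) : G) • b := fun e => ehr (by
    have h1 := hinj _ (hRn _ _ (R.mul_mem hr hr')) _ (R.mul_mem hr hr') ((hact hA hhP (r * r')).symm.trans e)
    rw [eh] at h1
    exact mul_right_cancel h1)
  have hag := moves_agree hsmall hg hh hm1 hm2
  have hkey : r * (gA * r' * gA⁻¹) = (hA * r * hA⁻¹) * r' := by
    rw [← eg, ← eh]
    refine hinj _ (hRn _ _ (R.mul_mem hr hr')) _ (hRn _ _ (R.mul_mem hr hr')) ?_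
    rw [← hact gA hgP, ← hact hA hhP]
    exact hag
  set d := (hA * r * hA⁻¹)⁻¹ * r with hd
  have hd' : d = r' * (gA * r' * gA⁻¹)⁻¹ := by
    rw [hd, eq_mul_inv_iff_mul_eq, mul_assoc, hkey, inv_mul_cancel_left]
  have hcomm : gA * hA = hA * gA := Subtype.ext (commute_all hab hsmall hab hg hh)
  have hcd : gA * d * gA⁻¹ = d := by
    calc gA * d * gA⁻¹ = ((gA * hA) * r * (gA * hA)⁻¹)⁻¹ * (gA * r * gA⁻¹) := by rw [hd]; group
      _ = ((hA * gA) * r * (hA * gA)⁻¹)⁻¹ * r := by rw [hcomm, egr]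
      _ = (hA * (gA * r * gA⁻¹) * hA⁻¹)⁻¹ * r := by group
      _ = d := by rw [egr, hd]
  have hg2 : gA * gA = 1 := Subtype.ext (invol_of_small hsmall g hg)
  have hcd' : gA * d * gA⁻¹ = d⁻¹ := by
    have h1 : gA * (gA * r' * gA⁻¹) * gA⁻¹ = r' := by
      calc gA * (gA * r' * gA⁻¹) * gA⁻¹ = (gA * gA) * r' * (gA * gA)⁻¹ := by group
        _ = r' := by rw [hg2]; group
    calc gA * d * gA⁻¹ = (gA * r' * gA⁻¹) * (gA * (gA * r' * gA⁻¹) * gA⁻¹)⁻¹ := by rw [hd']; group
      _ = (gA * r' * gA⁻¹) * r'⁻¹ := by rw [h1]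
      _ = d⁻¹ := by rw [hd']; group
  have hdd : d * d = 1 := by
    have : d⁻¹ = d := hcd'.symm.trans hcd
    calc d * d = d⁻¹ * d := by rw [this]
      _ = 1 := inv_mul_cancel d
  have hdR : d ∈ R := R.mul_mem (R.inv_mem (hRn _ _ hr)) hr
  have hd1 : d = 1 := by
    have h1 : orderOf (⟨d, hdR⟩ : R) ∣ 2 := orderOf_dvd_of_pow_eq_one (Subtype.ext (by simpa [pow_two] using hdd))
    have h2 : orderOf (⟨d, hdR⟩ : R) ∣ Fintype.card X - 1 := hRcard ▸ orderOf_dvd_natCard _
    rcases (Nat.dvd_prime Nat.prime_two).mp h1 with e | e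
    · exact congrArg Subtype.val (orderOf_eq_one_iff.mp e)
    · rw [e] at h2
      omega
  exact ehr (inv_mul_eq_one.mp hd1)

set_option maxHeartbeats 800000 in
theorem no_three_orbit {a b : X} (hn : 7 ≤ Fintype.card X) (hab : a ≠ b) {x₀ : X}
    (h3 : #(orbF G a b x₀) = 3) (hrest : ∀ y, y ∉ orbF G a b x₀ → #(orbF G a b y) ≤ 2) : False := by
  classical
  let A : Subgroup G := stabilizer G a ⊓ stabilizer G b
  have hmemA : ∀ z, z ∈ A ↔ z ∈ pairF G a b := fun z => by simp [A, pairF, Subgroup.mem_inf]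
  have h3A : 3 ∣ Nat.card A := by
    have h1 := index_stabilizer A x₀
    have h2 : (orbit A x₀).ncard = 3 := by
      rw [← h3, ← Set.ncard_coe_finset]
      congr 1
      ext z
      simp only [orbF, coe_filter, mem_univ, true_and, Set.mem_ofPred_eq]
      constructor
      · rintro ⟨⟨q, hq⟩, rfl⟩; exact ⟨q, (hmemA q).mp hq, rfl⟩
      · rintro ⟨q, hq, rfl⟩; exact ⟨⟨q, (hmemA q).mpr hq⟩, rfl⟩
    rw [← h2, ← h1]
    exact Subgroup.index_dvd_card _
  have : Fact (Nat.Prime 3) := ⟨Nat.prime_three⟩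
  obtain ⟨⟨g, hgA⟩, hg⟩ := exists_prime_orderOf_dvd_card' 3 h3A
  rw [Subgroup.orderOf_mk] at hg
  have hgp := (hmemA g).mp hgA
  have hfix : ∀ y, y ∉ orbF G a b x₀ → g • y = y := by
    intro y hy
    by_contra hgy
    have h1 : g • g • y = y := by
      by_contra hgg
      have hgg' : g • g • y ≠ g • y := fun e => hgy (smul_left_cancel g e)
      have := Finset.card_le_card (s := {y, g • y, g • g • y}) (t := orbF G a b y) (by
        simp only [Finset.insert_subset_iff, Finset.singleton_subset_iff]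
        refine ⟨self_mem_orbF a b y, mem_orbF_of hgp y, ?_⟩
        rw [← mul_smul]; exact mem_orbF_of (pairF_mul hgp hgp) y)
      rw [Finset.card_insert_of_notMem (by simp [Ne.symm hgy, Ne.symm hgg]), Finset.card_pair hgg'.symm] at this
      have := hrest y hy
      omega
    apply hgy
    have h2 : (g ^ 3) • y = y := by rw [← hg, pow_orderOf_eq_one, one_smul]
    rw [pow_succ, pow_two, mul_smul, mul_smul] at h2
    -- h2 : g • g • g • y = y
    exact (congrArg (g • ·) h1).symm.trans h2
  let ψ : G →* Equiv.Perm X := MulAction.toPermHom G X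
  have hψinj : Function.Injective ψ := MulAction.toPerm_injective
  have hsupp : (ψ g).support ⊆ orbF G a b x₀ := fun y hy => by
    by_contra hno
    exact Equiv.Perm.mem_support.mp hy (hfix y hno)
  have hord : orderOf (ψ g) = 3 := by rw [orderOf_injective ψ hψinj, hg]
  have hle : #(ψ g).support ≤ 3 := h3 ▸ Finset.card_le_card hsupp
  have hne : ψ g ≠ 1 := fun e => by rw [e, orderOf_one] at hord; omega
  have h2le := Equiv.Perm.two_le_card_support_of_ne_one hne
  have hcase : #(ψ g).support = 3 := by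
    by_contra h
    have h2' : #(ψ g).support = 2 := by omega
    rw [(Equiv.Perm.card_support_eq_two.mp h2').orderOf] at hord
    omega
  let f : X →ₑ[ψ.rangeRestrict] X := { toFun := id, map_smul' := fun _ _ => rfl }
  have hprim : IsPreprimitive G X := isPreprimitive_of_is_two_pretransitive h2
  have hP : IsPreprimitive ψ.range X := IsPreprimitive.of_surjective (f := f) Function.surjective_id
  have halt := Equiv.Perm.alternatingGroup_le_of_isPreprimitive_of_isThreeCycle_mem hP
    (card_support_eq_three_iff.mp hcase) ⟨g, rfl⟩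
  have hmove : ∀ z, (∀ q ∈ pairF G a b, q • z = z) → x₀ ≠ z := by
    intro z hz e
    have h1 : orbF G a b x₀ ⊆ ({x₀} : Finset X) := fun w hw => by
      simp only [orbF, mem_filter, mem_univ, true_and] at hw
      obtain ⟨q, hq, rfl⟩ := hw
      rw [Finset.mem_singleton, e]
      exact hz q hq
    have h1' := Finset.card_le_card h1
    rw [Finset.card_singleton, h3] at h1'
    omega
  have hx₀ : x₀ ≠ a ∧ x₀ ≠ b :=
    ⟨hmove a fun q hq => (mem_pairF.mp hq).1, hmove b fun q hq => (mem_pairF.mp hq).2⟩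
  have hall : ((univ : Finset X).erase a).erase b ⊆ orbF G a b x₀ := by
    intro y hy
    simp only [Finset.mem_erase, Finset.mem_univ, and_true] at hy
    by_cases hyx : y = x₀
    · rw [hyx]; exact self_mem_orbF (G := G) a b x₀
    obtain ⟨z, -, hz⟩ := Finset.exists_mem_notMem_of_card_lt_card
      (show #({a, b, x₀, y} : Finset X) < #(univ : Finset X) by
        rw [Finset.card_univ]; exact lt_of_le_of_lt Finset.card_le_four (by omega))
    simp only [Finset.mem_insert, Finset.mem_singleton, not_or] at hz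
    obtain ⟨hza, hzb, hzx, hzy⟩ := hz
    have hσ : Equiv.swap x₀ y * Equiv.swap y z ∈ ψ.range := halt (by
      rw [Equiv.Perm.mem_alternatingGroup, map_mul, Equiv.Perm.sign_swap (Ne.symm hyx),
        Equiv.Perm.sign_swap (Ne.symm hzy)]
      rfl)
    obtain ⟨q, hq⟩ := hσ
    have hqapp : ∀ w, q • w = (Equiv.swap x₀ y * Equiv.swap y z) w := fun w => by rw [← hq]; rfl
    simp only [orbF, mem_filter, mem_univ, true_and]
    refine ⟨q, mem_pairF.mpr ⟨?_, ?_⟩, ?_⟩ <;> rw [hqapp, Equiv.Perm.mul_apply]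
    · rw [Equiv.swap_apply_of_ne_of_ne (Ne.symm hy.2) (Ne.symm hza), Equiv.swap_apply_of_ne_of_ne hx₀.1.symm (Ne.symm hy.2)]
    · rw [Equiv.swap_apply_of_ne_of_ne (Ne.symm hy.1) (Ne.symm hzb), Equiv.swap_apply_of_ne_of_ne hx₀.2.symm (Ne.symm hy.1)]
    · rw [Equiv.swap_apply_of_ne_of_ne (Ne.symm hyx) (Ne.symm hzx), Equiv.swap_apply_left]
  have := Finset.card_le_card hall
  rw [Finset.card_erase_of_mem (Finset.mem_erase.mpr ⟨hab.symm, Finset.mem_univ _⟩),
    Finset.card_erase_of_mem (Finset.mem_univ _), Finset.card_univ] at this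
  omega

theorem meet_two {a b : X} (hab : a ≠ b) (hk : #(lineF G a b) = 3) {U V : Finset X}
    (hU : ∀ x ∈ U, ∀ y ∈ U, x ≠ y → lineF G x y ⊆ U) (hV : ∀ x ∈ V, ∀ y ∈ V, x ≠ y → lineF G x y ⊆ V)
    (hUc : 2 * #U + 1 = Fintype.card X) (hVc : #V = #U) (h3 : 4 ≤ #U) : 2 ≤ #(U ∩ V) := by
  by_contra hlt
  obtain ⟨u, hu, huV⟩ := Finset.exists_mem_notMem_of_card_lt_card (show #(U ∩ V) < #U by omega)
  have huV' : u ∉ V := fun h => huV (Finset.mem_inter.mpr ⟨hu, h⟩)
  have hself : ∀ x y : X, x ∈ lineF G x y ∧ y ∈ lineF G x y := fun x y =>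
    ⟨mem_lineF.mpr fun g hg => (mem_pairF.mp hg).1, mem_lineF.mpr fun g hg => (mem_pairF.mp hg).2⟩
  have hex : ∀ v : {v // v ∈ V \ U}, ∃ z, z ∉ U ∪ V ∧ lineF G u v = {u, (v : X), z} := by
    rintro ⟨v, hv⟩
    obtain ⟨hvV, hvU⟩ := Finset.mem_sdiff.mp hv
    have huv : u ≠ v := fun e => hvU (e ▸ hu)
    have hc : #(lineF G u v) = 3 := by rw [card_line_eq hab huv, hk]
    obtain ⟨z, hz, hz'⟩ := Finset.exists_mem_notMem_of_card_lt_card (show #({u, v} : Finset X) < #(lineF G u v) by
      rw [hc, Finset.card_pair huv]; omega)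
    simp only [Finset.mem_insert, Finset.mem_singleton, not_or] at hz'
    have heq : lineF G u v = {u, v, z} := (Finset.eq_of_subset_of_card_le
      (by simp [Finset.insert_subset_iff, hz, (hself u v).1, (hself u v).2])
      (by rw [hc, Finset.card_insert_of_notMem (by simp [huv, Ne.symm hz'.1]), Finset.card_pair (Ne.symm hz'.2)])).symm
    refine ⟨z, fun hzUV => ?_, heq⟩
    rcases Finset.mem_union.mp hzUV with h | h
    · have e := lineF_eq_of_mem huv (Ne.symm hz'.1) (hself u v).1 hz
      exact hvU (hU u hu z h (Ne.symm hz'.1) (e ▸ (hself u v).2))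
    · have e := lineF_eq_of_mem huv (Ne.symm hz'.2) (hself u v).2 hz
      exact huV' (hV v hvV z h (Ne.symm hz'.2) (e ▸ (hself u v).1))
  choose φ hφ hφ' using hex
  have hinj : Function.Injective φ := by
    intro v w e
    by_contra hvw
    have hne : ∀ q : {v // v ∈ V \ U}, u ≠ φ q := fun q h => hφ q (h ▸ Finset.mem_union_left _ hu)
    have huv : ∀ q : {v // v ∈ V \ U}, u ≠ (q : X) := fun q h => (Finset.mem_sdiff.mp q.2).2 (h ▸ hu)
    have e1 := lineF_eq_of_mem (huv v) (hne v) (hself u v).1 (show φ v ∈ lineF G u v by rw [hφ']; simp)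
    have e2 := lineF_eq_of_mem (huv w) (hne w) (hself u w).1 (show φ w ∈ lineF G u w by rw [hφ']; simp)
    have hmem : (w : X) ∈ lineF G u v := by rw [← e1, e, e2]; exact (hself u w).2
    rw [hφ' v] at hmem
    simp only [Finset.mem_insert, Finset.mem_singleton] at hmem
    rcases hmem with h | h | h
    · exact huv w h.symm
    · exact hvw (Subtype.ext h.symm)
    · exact hφ v (h ▸ Finset.mem_union_right _ (Finset.mem_sdiff.mp w.2).1)
  have hle : #(V \ U) ≤ #(univ \ (U ∪ V)) := by
    rw [← Fintype.card_coe, ← Fintype.card_coe]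
    exact Fintype.card_le_of_injective (fun v => ⟨φ v, Finset.mem_sdiff.mpr ⟨Finset.mem_univ _, hφ v⟩⟩)
      fun v w e => hinj (congrArg Subtype.val e)
  have h1 := Finset.card_sdiff_add_card_inter V U
  rw [Finset.inter_comm] at h1
  have h2 := Finset.card_union_add_card_inter U V
  rw [Finset.card_sdiff_of_subset (Finset.subset_univ _), Finset.card_univ] at hle
  omega

theorem no_seven {a b : X} (hab : a ≠ b) (hn : Fintype.card X = 7) (hs : #(pairF G a b) = 2) : False := by
  classical
  have : Fact (Nat.Prime 7) := ⟨by decide⟩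
  have hX : Nat.card X = 7 := by rw [Nat.card_eq_fintype_card, hn]
  have hprim : IsPreprimitive G X := isPreprimitive_of_is_two_pretransitive h2
  have hG : Nat.card G = 84 := by
    rw [Nat.card_eq_fintype_card, card_group (G := G) hab, Finset.offDiag_card, Finset.card_univ, hn, hs]
  obtain ⟨x, hx⟩ := exists_prime_orderOf_dvd_card' 7 (show 7 ∣ Nat.card G by rw [hG]; norm_num)
  obtain ⟨P, hP⟩ := (IsPGroup.of_card (p := 7) (n := 1) (G := Subgroup.zpowers x)
    (by rw [Nat.card_zpowers, hx, pow_one])).exists_le_sylow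
  have hPc : Nat.card P = 7 := card_sylow_of_prime hX P
  have hPeq : Subgroup.zpowers x = (P : Subgroup G) :=
    Subgroup.eq_of_le_of_card_ge hP (by rw [Nat.card_zpowers, hx, hPc])
  have hN := card_normalizer_dvd_of_prime hX hx
  rw [hPeq] at hN
  have h7 : 7 ∣ Nat.card (Subgroup.normalizer ((P : Subgroup G) : Set G)) :=
    dvd_trans (dvd_of_eq hPc.symm) (Subgroup.card_dvd_of_le Subgroup.le_normalizer)
  have hmul := (Subgroup.normalizer ((P : Subgroup G) : Set G)).card_mul_index
  have hni : (Subgroup.normalizer ((P : Subgroup G) : Set G)).index = Nat.card (Sylow 7 G) :=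
    P.card_eq_index_normalizer.symm
  rw [hni, hG] at hmul
  have hmod : Nat.card (Sylow 7 G) % 7 = 1 := card_sylow_modEq_one 7 G
  have hle := Nat.le_of_dvd (by norm_num) hN
  obtain ⟨j, hj⟩ := h7
  rw [hj, mul_assoc] at hmul
  rw [hj] at hle
  have hjle : j ≤ 6 := by omega
  interval_cases j <;> omega

theorem dichotomy (hn : 7 ≤ Fintype.card X) {a b : X} (hab : a ≠ b) :
    2 * orbN G a b ≤ Fintype.card X ∨
      ∀ g ∈ pairF G a b, g ≠ 1 → #(fixF (X := X) g) + orbN G a b ≤ Fintype.card X := by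
  classical
  by_cases hO : 2 * orbN G a b ≤ Fintype.card X
  · exact Or.inl hO
  refine Or.inr fun g hg hg1 => ?_
  obtain ⟨hub, heq2, heq1⟩ := orbit_facts (G := G) a b
  have hk2 := two_le_line (G := G) hab
  have hkf : #(lineF G a b) ≤ #(fixF (X := X) g) := Finset.card_le_card (line_subset_fix hg)
  have hb := fix_bound (G := G) hab hg1
  obtain hk | hk | hk : #(lineF G a b) = 2 ∨ #(lineF G a b) = 3 ∨ 4 ≤ #(lineF G a b) := by omega
  · by_cases h1 : 2 * orbN G a b + 1 = Fintype.card X + #(lineF G a b)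
    · obtain ⟨x₀, h3, hrest⟩ := heq1 h1
      exact (no_three_orbit hn hab h3 hrest).elim
    · have h0 : 2 * orbN G a b = Fintype.card X + #(lineF G a b) := by omega
      have hline : lineF G a b = {a, b} := (Finset.eq_of_subset_of_card_le (by
        simp only [Finset.insert_subset_iff, Finset.singleton_subset_iff, mem_lineF, mem_pairF]
        exact ⟨fun q hq => hq.1, fun q hq => hq.2⟩) (by rw [hk, Finset.card_pair hab])).symm
      have hev : Even (Fintype.card X) := by rw [Nat.even_iff]; omega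
      have := fix_two hab hev hline (heq2 h0) hg hg1
      omega
  · rw [hk] at hb hub heq2 heq1
    by_contra hgt
    have h0 : 2 * orbN G a b = Fintype.card X + 3 := by omega
    have hf : 2 * #(fixF (X := X) g) + 1 = Fintype.card X := by omega
    have hsmall := heq2 h0
    by_cases hf4 : 4 ≤ #(fixF (X := X) g)
    · have hcl : ∀ q : G, ∀ x ∈ fixF (X := X) q, ∀ y ∈ fixF (X := X) q, x ≠ y → lineF G x y ⊆ fixF (X := X) q :=
        fun q x hx y hy _ => line_subset_fix (mem_pairF.mpr ⟨mem_fixF.mp hx, mem_fixF.mp hy⟩)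
      exact no_big_meet hab hsmall hg1 (mem_pairF.mp hg).1 fun h h' =>
        meet_two (G := G) hab hk (hcl _) (hcl _) (by rw [card_fixF_conj]; exact hf)
          (by rw [card_fixF_conj, card_fixF_conj]) (by rw [card_fixF_conj]; exact hf4)
    · have hn7 : Fintype.card X = 7 := by omega
      refine no_seven (G := G) hab hn7 ?_
      -- every nonidentity element moves every point off the line
      have hsemi : ∀ q ∈ pairF G a b, q ≠ 1 → ∀ z, q • z = z → z ∈ lineF G a b := by
        intro q hq hq1 z hz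
        have hbq := fix_bound (G := G) hab hq1
        rw [hk, hn7] at hbq
        have : lineF G a b = fixF q := Finset.eq_of_subset_of_card_le (line_subset_fix hq) (by omega)
        exact this ▸ mem_fixF.mpr hz
      obtain ⟨x, -, hx⟩ := Finset.exists_mem_notMem_of_card_lt_card
        (show #(lineF G a b) < #(univ : Finset X) by rw [Finset.card_univ]; omega)
      have hp : pairF G a b = {1, g} := by
        ext q
        simp only [Finset.mem_insert, Finset.mem_singleton]
        constructor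
        · intro hq
          by_contra hno
          push Not at hno
          have hgx : g • x ≠ x := fun e => hx (hsemi g hg hg1 x e)
          have hqx : q • x ≠ x := fun e => hx (hsemi q hq hno.1 x e)
          have hag := moves_agree hsmall hq hg hqx hgx
          have h1 : g⁻¹ * q ∈ pairF G a b := pairF_mul (pairF_inv hg) hq
          have h2 : g⁻¹ * q ≠ 1 := fun e => hno.2 (inv_mul_eq_one.mp e).symm
          exact hx (hsemi _ h1 h2 x (by rw [mul_smul, hag, inv_smul_smul]))
        · rintro (rfl | rfl)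
          · simp [pairF]
          · exact hg
      rw [hp, Finset.card_pair (Ne.symm hg1)]
  · -- long lines
    by_contra hgt
    obtain ⟨j, hj⟩ := Nat.exists_eq_add_of_le hk
    rw [hj] at hb hub hkf
    rw [show 4 + j - 1 = j + 3 by omega] at hb
    have : 1 ≤ Fintype.card X := by omega
    have hb' : #(fixF (X := X) g) * (j + 3) + 1 ≤ Fintype.card X := by omega
    nlinarith

/-- The proportion of derangements. -/
theorem main (hn : 7 ≤ Fintype.card X) [IsPretransitive G X] {a b : X} (hab : a ≠ b)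
    (hs : 2 ≤ #(pairF G a b)) :
    2 * Fintype.card G ≤ Fintype.card X * #(univ.filter fun g : G => fixF (X := X) g = ∅) := by
  have hid := derangement_identity (G := G) hab
  have hge := sum_wgt_ge hs hab (dichotomy hn hab)
  have hG : (Fintype.card G : ℚ) = (Fintype.card X : ℚ) * (Fintype.card X - 1) * #(pairF G a b) := by
    rw [card_group (G := G) hab, Nat.cast_mul, Finset.offDiag_card, Nat.cast_sub (Nat.le_mul_self _),
      Nat.cast_mul, Finset.card_univ]
    ring
  have hnn : (0 : ℚ) ≤ (Fintype.card X : ℚ) * (Fintype.card X - 1) :=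
    mul_nonneg (Nat.cast_nonneg _) (by
      have : (7 : ℚ) ≤ Fintype.card X := by exact_mod_cast hn
      linarith)
  have := mul_le_mul_of_nonneg_left hge hnn
  have h' : 2 * (Fintype.card G : ℚ) ≤ (Fintype.card X : ℚ) * #(univ.filter fun g : G => fixF (X := X) g = ∅) := by
    linarith
  exact_mod_cast h'

end Cfsg.Agent.Lib.Perm.Derange
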