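import Cfsg.Agent.Lib.Perm.Derange
import Cfsg.Agent.Lib.Perm.NormalMulti
import Cfsg.Agent.Lib.Perm.PrimeDegree
import Mathlib.GroupTheory.Perm.Cycle.Type
import Mathlib.GroupTheory.SpecificGroups.Alternating

/-!
Orbits and fixed points of two-point stabilisers in doubly transitive groups.
-/

set_option autoImplicit false
set_option linter.unusedSectionVars false

namespace Cfsg.Agent.Lib.Perm.Derange

open MulAction Finset

variable {G : Type*} [Group G] [Fintype G] [DecidableEq G] {X : Type*} [Fintype X] [DecidableEq X]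
  [MulAction G X]

variable (G) in
/-- The orbit of a point under the stabiliser of two points. -/
def orbF (a b x : X) : Finset X := univ.filter fun y => ∃ g ∈ pairF G a b, g • x = y

theorem self_mem_orbF (a b x : X) : x ∈ orbF G a b x := by
  simp only [orbF, mem_filter, mem_univ, true_and]
  exact ⟨1, by simp [pairF], one_smul _ _⟩

theorem mem_orbF_of {a b : X} {g : G} (hg : g ∈ pairF G a b) (x : X) : g • x ∈ orbF G a b x := by
  simp only [orbF, mem_filter, mem_univ, true_and]
  exact ⟨g, hg, rfl⟩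

theorem pairF_inv {a b : X} {g : G} (hg : g ∈ pairF G a b) : g⁻¹ ∈ pairF G a b := by
  rw [mem_pairF] at hg ⊢
  exact ⟨inv_smul_eq_iff.mpr hg.1.symm, inv_smul_eq_iff.mpr hg.2.symm⟩

theorem pairF_mul {a b : X} {g h : G} (hg : g ∈ pairF G a b) (hh : h ∈ pairF G a b) :
    g * h ∈ pairF G a b := by
  rw [mem_pairF] at hg hh ⊢
  simp [mul_smul, hg.1, hg.2, hh.1, hh.2]

/-- Orbit sizes against the number of orbits. -/
theorem orbit_facts (a b : X) :
    2 * orbN G a b ≤ Fintype.card X + #(lineF G a b) ∧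
    (2 * orbN G a b = Fintype.card X + #(lineF G a b) → ∀ x, #(orbF G a b x) ≤ 2) ∧
    (2 * orbN G a b + 1 = Fintype.card X + #(lineF G a b) →
      ∃ x₀, #(orbF G a b x₀) = 3 ∧ ∀ y, y ∉ orbF G a b x₀ → #(orbF G a b y) ≤ 2) := by
  classical
  let Q := orbitRel.Quotient ↥(stabilizer G a ⊓ stabilizer G b) X
  have : Fintype Q := Fintype.ofFinite Q
  let π : X → Q := Quotient.mk''
  have hπ : ∀ x y : X, π y = π x ↔ y ∈ orbF G a b x := by
    intro x y
    rw [show (π y = π x ↔ _) from Quotient.eq'', orbitRel_apply]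
    simp only [orbF, mem_filter, mem_univ, true_and]
    constructor
    · rintro ⟨⟨g, hg⟩, rfl⟩
      exact ⟨g, by simpa [pairF, Subgroup.mem_inf] using hg, rfl⟩
    · rintro ⟨g, hg, rfl⟩
      exact ⟨⟨g, by simpa [pairF, Subgroup.mem_inf] using hg⟩, rfl⟩
  let c : Q → ℕ := fun q => #(univ.filter fun x => π x = q)
  have hc : ∀ x, c (π x) = #(orbF G a b x) := fun x => by
    refine congrArg Finset.card ?_
    ext y; simp [hπ]
  have hsum : Fintype.card X = ∑ q, c q := by
    rw [← Finset.card_univ]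
    exact Finset.card_eq_sum_card_fiberwise (fun _ _ => by simp)
  have hk : #(lineF G a b) = ∑ q, (if c q = 1 then 1 else 0) := by
    rw [Finset.sum_boole, Nat.cast_id]
    refine Finset.card_nbij π (fun x hx => ?_) (fun x hx y hy e => ?_) (fun q hq => ?_)
    · simp only [Finset.coe_filter, mem_univ, true_and, Set.mem_ofPred_eq]
      rw [hc, Finset.card_eq_one]
      refine ⟨x, Finset.eq_singleton_iff_unique_mem.mpr ⟨self_mem_orbF a b x, fun y hy => ?_⟩⟩
      simp only [orbF, mem_filter, mem_univ, true_and] at hy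
      obtain ⟨g, hg, rfl⟩ := hy
      exact mem_lineF.mp hx g hg
    · have h1 := (hπ y x).mp e
      simp only [orbF, mem_filter, mem_univ, true_and] at h1
      obtain ⟨g, hg, rfl⟩ := h1
      exact (mem_lineF.mp hy g hg)
    · obtain ⟨x, rfl⟩ := Quotient.mk''_surjective q
      simp only [Finset.coe_filter, mem_univ, true_and, Set.mem_ofPred_eq] at hq
      refine ⟨x, mem_lineF.mpr fun g hg => ?_, rfl⟩
      obtain ⟨z, hz⟩ := Finset.card_eq_one.mp ((hc x).symm.trans hq)
      have h1 := mem_orbF_of hg x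
      have h2 := self_mem_orbF (G := G) a b x
      rw [hz, Finset.mem_singleton] at h1 h2
      rw [h1, ← h2]
  let e : Q → ℕ := fun q => c q + if c q = 1 then 1 else 0
  have hpos : ∀ q, 1 ≤ c q := fun q => by
    obtain ⟨x, rfl⟩ := Quotient.mk''_surjective q
    exact Finset.card_pos.mpr ⟨x, by simp [π]⟩
  have he : ∀ q, 2 ≤ e q := fun q => by
    have := hpos q
    show 2 ≤ c q + _
    split_ifs with h <;> omega
  have htot : Fintype.card X + #(lineF G a b) = ∑ q, e q := by
    rw [hsum, hk, ← Finset.sum_add_distrib]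
  have hO : orbN G a b = Fintype.card Q := Nat.card_eq_fintype_card
  have hlow : ∀ S : Finset Q, 2 * #S ≤ ∑ q ∈ S, e q := fun S => by
    rw [mul_comm, ← smul_eq_mul]; exact Finset.card_nsmul_le_sum _ _ _ fun q _ => he q
  have hsplit : ∀ q, e q + 2 * (Fintype.card Q - 1) ≤ ∑ r, e r := fun q => by
    rw [← Finset.add_sum_erase _ _ (Finset.mem_univ q)]
    have := hlow (univ.erase q)
    rw [Finset.card_erase_of_mem (Finset.mem_univ q), Finset.card_univ] at this
    omega
  rw [htot, hO]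
  refine ⟨by simpa using hlow univ, fun h x => ?_, fun h => ?_⟩
  · have h1 := hsplit (π x)
    have h2 : 1 ≤ Fintype.card Q := Fintype.card_pos_iff.mpr ⟨π x⟩
    have h3 : c (π x) ≤ e (π x) := Nat.le_add_right _ _
    rw [← hc]
    omega
  · obtain ⟨q₀, hq₀⟩ : ∃ q, e q ≠ 2 := by
      by_contra hno
      push Not at hno
      rw [Finset.sum_congr rfl (fun q _ => hno q), Finset.sum_const, Finset.card_univ, smul_eq_mul] at h
      omega
    obtain ⟨x₀, rfl⟩ := Quotient.mk''_surjective q₀
    have h2 : 1 ≤ Fintype.card Q := Fintype.card_pos_iff.mpr ⟨π x₀⟩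
    have h1 : e (π x₀) + 2 * (Fintype.card Q - 1) ≤ ∑ r, e r := hsplit _
    have h3 : 3 ≤ e (π x₀) := by
      have := he (π x₀)
      have : e (π x₀) ≠ 2 := hq₀
      omega
    have h4 : e (π x₀) = 3 := by omega
    have h5 : c (π x₀) = 3 := by
      have h6 : e (π x₀) = c (π x₀) + if c (π x₀) = 1 then 1 else 0 := rfl
      rw [h6] at h4
      split_ifs at h4 with h7 <;> omega
    refine ⟨x₀, by rw [← hc, h5], fun y hy => ?_⟩
    rw [← hc]
    by_contra hgt
    have hne : π y ≠ π x₀ := fun e' => hy ((hπ x₀ y).mp e')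
    have h8 : 3 ≤ e (π y) := le_trans (by omega) (Nat.le_add_right (c (π y)) _)
    have h9 : e (π y) + e (π x₀) + 2 * (Fintype.card Q - 2) ≤ ∑ r, e r := by
      rw [← Finset.add_sum_erase _ _ (Finset.mem_univ (π x₀)),
        ← Finset.add_sum_erase (univ.erase (π x₀)) _ (Finset.mem_erase.mpr ⟨hne, Finset.mem_univ _⟩)]
      have := hlow ((univ.erase (π x₀)).erase (π y))
      rw [Finset.card_erase_of_mem (Finset.mem_erase.mpr ⟨hne, Finset.mem_univ _⟩),
        Finset.card_erase_of_mem (Finset.mem_univ _), Finset.card_univ] at this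
      omega
    omega

theorem two_le_line {a b : X} (hab : a ≠ b) : 2 ≤ #(lineF G a b) := by
  rw [← Finset.card_pair hab]
  refine Finset.card_le_card ?_
  simp only [Finset.insert_subset_iff, Finset.singleton_subset_iff, mem_lineF, mem_pairF]
  exact ⟨fun g hg => hg.1, fun g hg => hg.2⟩

theorem line_subset_fix {a b : X} {g : G} (hg : g ∈ pairF G a b) : lineF G a b ⊆ fixF g :=
  fun _ hx => mem_fixF.mpr (mem_lineF.mp hx g hg)

section Two

variable [h2 : IsMultiplyPretransitive G X 2]

theorem pairF_eq_of_mem {a b x y : X} (hab : a ≠ b) (hxy : x ≠ y) (hx : x ∈ lineF G a b)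
    (hy : y ∈ lineF G a b) : pairF G x y = pairF G a b :=
  (Finset.eq_of_subset_of_card_le (fun g hg => mem_pairF.mpr ⟨mem_lineF.mp hx g hg, mem_lineF.mp hy g hg⟩)
    (card_pairF_eq hab hxy).le).symm

theorem lineF_eq_of_mem {a b x y : X} (hab : a ≠ b) (hxy : x ≠ y) (hx : x ∈ lineF G a b)
    (hy : y ∈ lineF G a b) : lineF G x y = lineF G a b := by
  simp only [lineF, pairF_eq_of_mem hab hxy hx hy]

theorem card_line_eq {a b c d : X} (hab : a ≠ b) (hcd : c ≠ d) :
    #(lineF G c d) = #(lineF G a b) := by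
  suffices h : ∀ a b c d : X, a ≠ b → c ≠ d → #(lineF G a b) ≤ #(lineF G c d) from
    le_antisymm (h c d a b hcd hab) (h a b c d hab hcd)
  intro a b c d hab hcd
  obtain ⟨h, hc, hd⟩ := exists_move (G := G) hab hcd
  refine Finset.card_le_card_of_injOn (fun x => h • x) (fun x hx => ?_)
    (MulAction.injective h).injOn
  refine mem_lineF.mpr fun g hg => ?_
  rw [mem_pairF] at hg
  have : h⁻¹ * g * h ∈ pairF G a b := by
    rw [mem_pairF]
    simp [mul_smul, hc, hd, hg.1, hg.2, inv_smul_eq_iff]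
  have h1 := mem_lineF.mp hx _ this
  rw [mul_smul, mul_smul, inv_smul_eq_iff] at h1
  exact h1

theorem fix_bound [FaithfulSMul G X] {a b : X} (hab : a ≠ b) {g : G} (hg : g ≠ 1) :
    #(fixF (X := X) g) * (#(lineF G a b) - 1) ≤ Fintype.card X - 1 := by
  obtain ⟨w, hw⟩ : ∃ w : X, w ∉ fixF (X := X) g := by
    by_contra h
    push Not at h
    exact hg (eq_of_smul_eq_smul (α := X) fun x => by rw [one_smul]; exact mem_fixF.mp (h x))
  have hne : ∀ u ∈ fixF (X := X) g, u ≠ w := fun u hu e => hw (e ▸ hu)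
  have hself : ∀ x y : X, x ∈ lineF G x y ∧ y ∈ lineF G x y := fun x y =>
    ⟨mem_lineF.mpr fun g hg => (mem_pairF.mp hg).1, mem_lineF.mpr fun g hg => (mem_pairF.mp hg).2⟩
  have hdisj : ((fixF (X := X) g : Finset X) : Set X).PairwiseDisjoint fun u => (lineF G u w).erase w := by
    intro u hu u' hu' huu'
    show Disjoint _ _
    rw [Finset.disjoint_left]
    intro v hv hv'
    obtain ⟨hvw, hv⟩ := Finset.mem_erase.mp hv
    obtain ⟨-, hv'⟩ := Finset.mem_erase.mp hv'
    have e1 := lineF_eq_of_mem (hne u hu) hvw hv (hself u w).2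
    have e2 := lineF_eq_of_mem (hne u' hu') hvw hv' (hself u' w).2
    have hu'l : u' ∈ lineF G u w := by rw [← e1, e2]; exact (hself u' w).1
    have e3 := lineF_eq_of_mem (hne u hu) huu' (hself u w).1 hu'l
    have hgm : g ∈ pairF G u u' := mem_pairF.mpr ⟨mem_fixF.mp hu, mem_fixF.mp hu'⟩
    exact hw (line_subset_fix hgm (e3 ▸ (hself u w).2))
  have h1 : #((fixF (X := X) g).biUnion fun u => (lineF G u w).erase w) ≤ #(univ.erase w) :=
    Finset.card_le_card fun v hv => by
      obtain ⟨u, -, hv⟩ := Finset.mem_biUnion.mp hv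
      exact Finset.mem_erase.mpr ⟨(Finset.mem_erase.mp hv).1, Finset.mem_univ _⟩
  rw [Finset.card_biUnion hdisj, Finset.card_erase_of_mem (Finset.mem_univ _), Finset.card_univ,
    Finset.sum_congr rfl (fun u hu => by
      rw [Finset.card_erase_of_mem (hself u w).2, card_line_eq hab (hne u hu)]),
    Finset.sum_const, smul_eq_mul] at h1
  exact h1

theorem invol_of_small [FaithfulSMul G X] {a b : X} (hsmall : ∀ x, #(orbF G a b x) ≤ 2) :
    ∀ g ∈ pairF G a b, g * g = 1 := by
  intro g hg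
  refine eq_of_smul_eq_smul (α := X) fun x => ?_
  rw [one_smul, mul_smul]
  by_contra h
  have hgx : g • x ≠ x := fun e => h (by rw [e, e])
  have hgg : g • g • x ≠ g • x := fun e => hgx (smul_left_cancel g e)
  have := Finset.card_le_card (s := {x, g • x, g • g • x}) (t := orbF G a b x) (by
    simp only [Finset.insert_subset_iff, Finset.singleton_subset_iff]
    refine ⟨self_mem_orbF a b x, mem_orbF_of hg x, ?_⟩
    rw [← mul_smul]; exact mem_orbF_of (pairF_mul hg hg) x)
  rw [Finset.card_insert_of_notMem (by simp [Ne.symm hgx, Ne.symm h]), Finset.card_pair hgg.symm] at this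
  have := hsmall x
  omega

theorem moves_agree {a b : X} (hsmall : ∀ x, #(orbF G a b x) ≤ 2) {g h : G} (hg : g ∈ pairF G a b)
    (hh : h ∈ pairF G a b) {x : X} (hgx : g • x ≠ x) (hhx : h • x ≠ x) : g • x = h • x := by
  by_contra hne
  have := Finset.card_le_card (s := {x, g • x, h • x}) (t := orbF G a b x) (by
    simp only [Finset.insert_subset_iff, Finset.singleton_subset_iff]
    exact ⟨self_mem_orbF a b x, mem_orbF_of hg x, mem_orbF_of hh x⟩)
  rw [Finset.card_insert_of_notMem (by simp [Ne.symm hgx, Ne.symm hhx]), Finset.card_pair hne] at this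
  have := hsmall x
  omega

theorem commute_all [FaithfulSMul G X] {a b : X} (hab : a ≠ b) (hsmall : ∀ x, #(orbF G a b x) ≤ 2)
    {x y : X} (hxy : x ≠ y) {g g' : G} (hg : g ∈ pairF G x y) (hg' : g' ∈ pairF G x y) :
    g * g' = g' * g := by
  obtain ⟨h, hc, hd⟩ := exists_move (G := G) hab hxy
  have hmem : ∀ z ∈ pairF G x y, z * z = 1 := by
    intro z hz
    rw [mem_pairF] at hz
    have h1 : h⁻¹ * z * h ∈ pairF G a b := by
      rw [mem_pairF]
      simp [mul_smul, hc, hd, hz.1, hz.2, inv_smul_eq_iff]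
    have h2 := invol_of_small hsmall _ h1
    calc z * z = h * ((h⁻¹ * z * h) * (h⁻¹ * z * h)) * h⁻¹ := by group
      _ = 1 := by rw [h2]; group
  have i1 : g⁻¹ = g := inv_eq_iff_mul_eq_one.mpr (hmem g hg)
  have i2 : g'⁻¹ = g' := inv_eq_iff_mul_eq_one.mpr (hmem g' hg')
  have i3 : (g * g')⁻¹ = g * g' := inv_eq_iff_mul_eq_one.mpr (hmem _ (pairF_mul hg hg'))
  rw [mul_inv_rev, i1, i2] at i3
  exact i3.symm

/-- If all conjugates of `g` share two fixed points with each other they cannot commute. -/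
theorem no_big_meet [FaithfulSMul G X] {a b : X} (hab : a ≠ b) (hsmall : ∀ x, #(orbF G a b x) ≤ 2)
    {g : G} (hg : g ≠ 1) (hga : g • a = a)
    (hmeet : ∀ h h' : G, 2 ≤ #(fixF (X := X) (h * g * h⁻¹) ∩ fixF (X := X) (h' * g * h'⁻¹))) : False := by
  let N := Subgroup.normalClosure ({g} : Set G)
  have hcomm : ∀ z ∈ Group.conjugatesOfSet ({g} : Set G), ∀ z' ∈ Group.conjugatesOfSet ({g} : Set G),
      z * z' = z' * z := by
    intro z hz z' hz'
    obtain ⟨w, hw, hconj⟩ := Group.mem_conjugatesOfSet_iff.mp hz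
    obtain ⟨w', hw', hconj'⟩ := Group.mem_conjugatesOfSet_iff.mp hz'
    rw [Set.mem_singleton_iff] at hw hw'
    rw [hw] at hconj
    rw [hw'] at hconj'
    obtain ⟨h, rfl⟩ := isConj_iff.mp hconj
    obtain ⟨h', rfl⟩ := isConj_iff.mp hconj'
    obtain ⟨x, hx, y, hy, hxy⟩ := Finset.one_lt_card.mp (hmeet h h')
    rw [Finset.mem_inter, mem_fixF, mem_fixF] at hx hy
    exact commute_all hab hsmall hxy (mem_pairF.mpr ⟨hx.1, hy.1⟩) (mem_pairF.mpr ⟨hx.2, hy.2⟩)
  have hC : ∀ z ∈ N, ∀ z' ∈ N, z * z' = z' * z := by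
    have h1 : N ≤ Subgroup.centralizer (Group.conjugatesOfSet ({g} : Set G)) :=
      (Subgroup.closure_le _).mpr fun z hz => Subgroup.mem_centralizer_iff.mpr fun z' hz' => hcomm z' hz' z hz
    have h2 : N ≤ Subgroup.centralizer (N : Set G) :=
      (Subgroup.closure_le _).mpr fun z hz => Subgroup.mem_centralizer_iff.mpr fun z' hz' =>
        (Subgroup.mem_centralizer_iff.mp (h1 hz') z hz).symm
    exact fun z hz z' hz' => (Subgroup.mem_centralizer_iff.mp (h2 hz) z' hz').symm
  have hprim : IsPreprimitive G X := isPreprimitive_of_is_two_pretransitive h2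
  have hgN : g ∈ N := Subgroup.subset_normalClosure rfl
  have hNb : N ≠ ⊥ := fun e => hg (by rwa [e, Subgroup.mem_bot] at hgN)
  have := transitive_of_normal (X := X) N hNb
  have hst := stabilizer_eq_bot_of_comm (X := X) N ⟨⟨fun u v => Subtype.ext (hC u u.2 v v.2)⟩⟩ a
  have hm : (⟨g, hgN⟩ : N) ∈ stabilizer N a := mem_stabilizer_iff.mpr hga
  rw [hst, Subgroup.mem_bot] at hm
  exact hg (congrArg Subtype.val hm)

end Two

end Cfsg.Agent.Lib.Perm.Derange
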