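import Mathlib

/-!
A lower bound for the minimal degree of a primitive group (Babai's distinguishing number argument).
-/

set_option autoImplicit false

namespace Cfsg.Agent.Lib.Perm.MinimalDegreeBound

open MulAction Finset
open scoped Pointwise

variable {G Ω : Type*} [Group G] [MulAction G Ω]

/-- Same orbital. -/
def SameOrb (G : Type*) {Ω : Type*} [Group G] [MulAction G Ω] (a b c d : Ω) : Prop :=
  ∃ g : G, g • a = c ∧ g • b = d

lemma SameOrb.refl (a b : Ω) : SameOrb G a b a b := ⟨1, one_smul _ _, one_smul _ _⟩

lemma SameOrb.symm {a b c d : Ω} (h : SameOrb G a b c d) : SameOrb G c d a b := by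
  obtain ⟨g, rfl, rfl⟩ := h
  exact ⟨g⁻¹, inv_smul_smul _ _, inv_smul_smul _ _⟩

lemma SameOrb.trans {a b c d e f : Ω} (h : SameOrb G a b c d) (h' : SameOrb G c d e f) :
    SameOrb G a b e f := by
  obtain ⟨g, rfl, rfl⟩ := h
  obtain ⟨g', rfl, rfl⟩ := h'
  exact ⟨g' * g, mul_smul _ _ _, mul_smul _ _ _⟩

lemma SameOrb.swap {a b c d : Ω} (h : SameOrb G a b c d) : SameOrb G b a d c := by
  obtain ⟨g, h1, h2⟩ := h; exact ⟨g, h2, h1⟩

lemma sameOrb_smul (g : G) (a b : Ω) : SameOrb G a b (g • a) (g • b) := ⟨g, rfl, rfl⟩

variable [Fintype Ω] [DecidableEq Ω]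

open Classical in
/-- The points distinguishing `a` from `b`. -/
noncomputable def dset (G : Type*) {Ω : Type*} [Group G] [MulAction G Ω] [Fintype Ω] (a b : Ω) :
    Finset Ω := univ.filter fun c => ¬ SameOrb G a c b c

lemma mem_dset {a b c : Ω} : c ∈ dset G a b ↔ ¬ SameOrb G a c b c := by simp [dset]

lemma dset_symm (a b : Ω) : dset G a b = dset G b a := by
  ext c; simp only [mem_dset]; exact not_congr ⟨SameOrb.symm, SameOrb.symm⟩

lemma dset_triangle (a b c : Ω) : dset G a c ⊆ dset G a b ∪ dset G b c := by
  intro x hx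
  simp only [mem_union, mem_dset] at hx ⊢
  by_contra h; push Not at h
  exact hx (h.1.trans h.2)

lemma dset_smul (g : G) (a b : Ω) : (dset G (g • a) (g • b)).card = (dset G a b).card := by
  symm
  refine Finset.card_bij (fun (c : Ω) _ => g • c) (fun c hc => ?_) (fun c _ d _ e => MulAction.injective g e)
    fun d hd => ⟨g⁻¹ • d, ?_, smul_inv_smul _ _⟩
  · rw [mem_dset] at hc ⊢
    exact fun h => hc (((sameOrb_smul g a c).trans h).trans (sameOrb_smul g b c).symm)
  · rw [mem_dset] at hd ⊢
    intro h
    have h1 := ((sameOrb_smul g a (g⁻¹ • d)).symm.trans h).trans (sameOrb_smul g b (g⁻¹ • d))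
    rw [smul_inv_smul] at h1
    exact hd h1

lemma dset_sameOrb {a b c d : Ω} (h : SameOrb G a b c d) :
    (dset G c d).card = (dset G a b).card := by
  obtain ⟨g, rfl, rfl⟩ := h; exact dset_smul g a b

lemma dset_self (a : Ω) : dset G a a = ∅ := by
  ext c; simp [mem_dset, SameOrb.refl]

lemma dset_le_support (g : G) (a : Ω) :
    (dset G a (g • a)).card ≤ Fintype.card Ω - Nat.card (fixedBy Ω g) := by
  classical
  have h : dset G a (g • a) ⊆ univ.filter fun c => ¬ g • c = c := fun c hc => by
    rw [mem_filter]; refine ⟨mem_univ _, fun e => mem_dset.1 hc ?_⟩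
    exact ⟨g, rfl, e⟩
  refine (card_le_card h).trans ?_
  have e : Nat.card (fixedBy Ω g) = (univ.filter fun c : Ω => g • c = c).card := by
    rw [Nat.card_eq_fintype_card]
    exact Fintype.card_subtype _
  rw [e, ← card_compl]
  exact card_le_card fun c hc => by simpa using hc

variable [IsPreprimitive G Ω]

/-- An invariant relation with an edge connects everything. -/
lemma connected (A : Ω → Ω → Prop) (hA : ∀ (g : G) a b, A a b → A (g • a) (g • b))
    {a₀ b₀ : Ω} (hab : A a₀ b₀) (hne : a₀ ≠ b₀) (a b : Ω) : Relation.ReflTransGen A a b := by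
  classical
  have hinv : ∀ (g : G) x y, Relation.ReflTransGen A x y → Relation.ReflTransGen A (g • x) (g • y) :=
    fun g x y h => h.lift (g • ·) fun u v => hA g u v
  have hcard : ∀ x y, (univ.filter (Relation.ReflTransGen A x)).card =
      (univ.filter (Relation.ReflTransGen A y)).card := by
    suffices h : ∀ x y, (univ.filter (Relation.ReflTransGen A x)).card ≤
        (univ.filter (Relation.ReflTransGen A y)).card from fun x y => le_antisymm (h x y) (h y x)
    intro x y
    obtain ⟨g, rfl⟩ := exists_smul_eq G x y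
    refine card_le_card_of_injOn (g • ·) (fun z hz => ?_) (fun z _ w _ e => MulAction.injective g e)
    simp only [coe_filter, mem_univ, true_and, Set.mem_setOf_eq] at hz ⊢
    exact hinv g _ _ hz
  have hsymm : ∀ x y, Relation.ReflTransGen A x y → Relation.ReflTransGen A y x := by
    intro x y h
    have hsub : univ.filter (Relation.ReflTransGen A y) ⊆ univ.filter (Relation.ReflTransGen A x) :=
      fun z hz => by
        simp only [mem_filter, mem_univ, true_and] at hz ⊢
        exact h.trans hz
    have he := eq_of_subset_of_card_le hsub (hcard x y).le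
    have : x ∈ univ.filter (Relation.ReflTransGen A x) := by simp [Relation.ReflTransGen.refl]
    rw [← he] at this
    simpa using this
  set B : Set Ω := {x | Relation.ReflTransGen A a₀ x}
  have hB : IsBlock G B := by
    rw [isBlock_iff_smul_eq_or_disjoint]
    intro g
    have he : g • B = {x | Relation.ReflTransGen A (g • a₀) x} := by
      ext x
      simp only [Set.mem_smul_set, B, Set.mem_setOf_eq]
      refine ⟨?_, fun hx => ⟨g⁻¹ • x, ?_, smul_inv_smul _ _⟩⟩
      · rintro ⟨y, hy, rfl⟩; exact hinv g _ _ hy
      · simpa using hinv g⁻¹ _ _ hx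
    rw [he]
    by_cases h : Relation.ReflTransGen A a₀ (g • a₀)
    · left; ext x; exact ⟨fun hx => h.trans hx, fun hx => (hsymm _ _ h).trans hx⟩
    · right
      rw [Set.disjoint_left]
      exact fun x hx hx' => h (hx'.trans (hsymm _ _ hx))
  rcases IsPreprimitive.isTrivialBlock_of_isBlock hB with h | h
  · exact absurd (h (show a₀ ∈ B from .refl) (show b₀ ∈ B from Relation.ReflTransGen.single hab)) hne
  · have hall : ∀ x, Relation.ReflTransGen A a₀ x := fun x => by
      have : x ∈ B := by rw [h]; trivial
      exact this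
    exact (hsymm _ _ (hall a)).trans (hall b)

/-- Every point is distinguished by some neighbour. -/
lemma card_le_out (A : Ω → Ω → Prop) [DecidableRel A]
    (hA : ∀ (g : G) a b, A a b → A (g • a) (g • b))
    {a b₀ : Ω} (hab : A a b₀) (hne : a ≠ b₀) {D : ℕ} (hD : ∀ b, A a b → (dset G a b).card ≤ D) :
    Fintype.card Ω - 1 ≤ (univ.filter (A a)).card * D := by
  classical
  have hsub : univ.erase a ⊆ (univ.filter (A a)).biUnion fun b => dset G a b := by
    intro c hc
    by_contra hcon
    simp only [mem_biUnion, mem_filter, mem_univ, true_and, not_exists, not_and, mem_dset, not_not] at hcon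
    have hreach : ∀ x, Relation.ReflTransGen A a x → SameOrb G a c x c := by
      intro x hx
      induction hx with
      | refl => exact .refl _ _
      | @tail x y _ hxy ih =>
        obtain ⟨g, hga, hgc⟩ := ih
        have hy : A a (g⁻¹ • y) := by
          have := hA g⁻¹ x y hxy
          rwa [← hga, inv_smul_smul] at this
        refine (hcon _ hy).trans ⟨g, smul_inv_smul _ _, hgc⟩
    obtain ⟨g, hga, hgc⟩ := hreach c (connected A hA hab hne a c)
    exact (mem_erase.1 hc).1 (MulAction.injective g (hgc.trans hga.symm))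
  calc Fintype.card Ω - 1 = (univ.erase a).card := by rw [card_erase_of_mem (mem_univ a), card_univ]
    _ ≤ _ := card_le_card hsub
    _ ≤ _ := card_biUnion_le_card_mul _ _ _ fun b hb => hD b (by simpa using hb)

/-- The distinguishing number of an orbital, in rank at least three. -/
theorem card_le_dset {a₀ b₀ : Ω} (hne : a₀ ≠ b₀)
    (h3 : ∀ x y : Ω, x ≠ y → ∃ z, z ≠ x ∧ ¬ SameOrb G x y x z) :
    Fintype.card Ω ≤ (2 * (dset G a₀ b₀).card + 1) ^ 2 := by
  classical
  set D := (dset G a₀ b₀).card with hD
  set A : Ω → Ω → Prop := fun a b => SameOrb G a₀ b₀ a b ∨ SameOrb G a₀ b₀ b a with hAdef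
  have hA : ∀ (g : G) a b, A a b → A (g • a) (g • b) := fun g a b h =>
    h.imp (fun h => h.trans (sameOrb_smul g a b)) (fun h => h.trans (sameOrb_smul g b a))
  have hAs : ∀ a b, A a b → A b a := fun a b h => h.symm
  have hAD : ∀ a b, A a b → (dset G a b).card = D := by
    rintro a b (h | h)
    · exact dset_sameOrb h
    · rw [dset_symm]; exact dset_sameOrb h
  have hcl : ∀ a b c e, A a b → SameOrb G a b c e → A c e := by
    rintro a b c e h ⟨g, rfl, rfl⟩; exact hA g a b h
  have hA0 : A a₀ b₀ := Or.inl (.refl _ _)
  by_cases hfar : ∃ a x y b, A a x ∧ A x y ∧ A y b ∧ ∀ z, ¬ (A a z ∧ A b z)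
  · obtain ⟨a, x, y, b, h1, h2, h4, hno⟩ := hfar
    have hax : a ≠ x := fun e => by
      subst e
      rcases h1 with ⟨g, e1, e2⟩ | ⟨g, e1, e2⟩
      · exact hne (MulAction.injective g (e1.trans e2.symm))
      · exact hne (MulAction.injective g (e1.trans e2.symm))
    have hcount := card_le_out A hA h1 hax (D := D) fun z hz => (hAD a z hz).le
    set N := univ.filter (A a) with hN
    set N' := univ.filter (A b) with hN'
    have hcardN : N'.card = N.card := by
      obtain ⟨g, hg⟩ := exists_smul_eq G a b
      symm
      refine Finset.card_bij (fun (z : Ω) _ => g • z) (fun z hz => ?_) (fun z _ w _ e => MulAction.injective g e)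
        fun z hz => ⟨g⁻¹ • z, ?_, smul_inv_smul _ _⟩
      · simp only [hN, hN', mem_filter, mem_univ, true_and] at hz ⊢
        rw [← hg]; exact hA g _ _ hz
      · simp only [hN, hN', mem_filter, mem_univ, true_and] at hz ⊢
        have := hA g⁻¹ _ _ hz
        rwa [← hg, inv_smul_smul] at this
    have hsub : N ∪ N' ⊆ dset G a b := by
      intro z hz
      rw [mem_dset]
      intro hs
      simp only [hN, hN', mem_union, mem_filter, mem_univ, true_and] at hz
      rcases hz with hz | hz
      · exact hno z ⟨hz, hcl _ _ _ _ hz hs⟩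
      · exact hno z ⟨hcl _ _ _ _ hz hs.symm, hz⟩
    have hdisj : Disjoint N N' := disjoint_left.2 fun z hz hz' =>
      hno z ⟨(mem_filter.1 hz).2, (mem_filter.1 hz').2⟩
    have h6 : (dset G a b).card ≤ 3 * D := by
      refine (card_le_card ((dset_triangle a x b).trans (union_subset_union_right (dset_triangle x y b)))).trans ?_
      refine (card_union_le _ _).trans ?_
      have := card_union_le (dset G x y) (dset G y b)
      rw [hAD a x h1]
      rw [hAD x y h2, hAD y b h4] at this
      omega
    have h7 : 2 * N.card ≤ 3 * D := by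
      have := card_le_card hsub
      rw [card_union_of_disjoint hdisj, hcardN] at this
      omega
    have h8 : 2 * (Fintype.card Ω - 1) ≤ 3 * D * D := by
      calc 2 * (Fintype.card Ω - 1) ≤ 2 * (N.card * D) := Nat.mul_le_mul_left _ hcount
        _ = 2 * N.card * D := by ring
        _ ≤ 3 * D * D := Nat.mul_le_mul_right _ h7
    have : Fintype.card Ω ≤ 3 * D * D + 1 := by omega
    nlinarith
  · push Not at hfar
    -- everything is within two steps
    have htwo : ∀ a b, a = b ∨ A a b ∨ ∃ z, A a z ∧ A b z := by
      intro a b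
      induction connected A hA hA0 hne a b with
      | refl => exact Or.inl rfl
      | @tail x y _ hxy ih =>
        rcases ih with rfl | h | ⟨z, hz, hz'⟩
        · exact Or.inr (Or.inl hxy)
        · exact Or.inr (Or.inr ⟨x, h, hAs _ _ hxy⟩)
        · exact Or.inr (Or.inr (hfar a z x y hz (hAs _ _ hz') hxy))
    have hdia : ∀ a b : Ω, (dset G a b).card ≤ 2 * D := by
      intro a b
      rcases htwo a b with rfl | h | ⟨z, hz, hz'⟩
      · simp [dset_self]
      · rw [hAD _ _ h]; omega
      · refine (card_le_card (dset_triangle a z b)).trans ((card_union_le _ _).trans ?_)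
        rw [dset_symm z b, hAD _ _ hz, hAD _ _ hz']; omega
    let cl : Ω → Ω → Finset Ω := fun x y => univ.filter fun z => SameOrb G x y x z
    obtain ⟨⟨x, y⟩, hxy, hmax⟩ := Finset.exists_max_image
      ((univ : Finset (Ω × Ω)).filter fun p => p.1 ≠ p.2) (fun p => (cl p.1 p.2).card)
      ⟨(a₀, b₀), by simp [hne]⟩
    simp only [mem_filter, mem_univ, true_and] at hxy hmax
    set M := (cl x y).card with hM
    -- average over the points distinguished from `a₀`
    have hsum : (Fintype.card Ω - 1) * (Fintype.card Ω - M) ≤ (Fintype.card Ω - 1) * (2 * D) := by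
      have e1 : ∑ b ∈ univ.erase a₀, (dset G a₀ b).card ≤ (Fintype.card Ω - 1) * (2 * D) := by
        refine (sum_le_card_nsmul _ _ _ fun b _ => hdia a₀ b).trans ?_
        rw [card_erase_of_mem (mem_univ _), card_univ, smul_eq_mul]
      refine le_trans ?_ e1
      calc (Fintype.card Ω - 1) * (Fintype.card Ω - M)
          = ∑ _c ∈ univ.erase a₀, (Fintype.card Ω - M) := by
            rw [sum_const, card_erase_of_mem (mem_univ _), card_univ, smul_eq_mul]
        _ ≤ ∑ c ∈ univ.erase a₀, ((univ.erase a₀).filter fun b => c ∈ dset G a₀ b).card := by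
            refine sum_le_sum fun c hc => ?_
            have hca : c ≠ a₀ := (mem_erase.1 hc).1
            have hle : Fintype.card Ω - M ≤ (univ \ cl c a₀).card := by
              rw [card_univ_sdiff]
              have := hmax (c, a₀) hca
              simp only at this
              omega
            refine hle.trans (card_le_card fun b hb => ?_)
            simp only [cl, mem_sdiff, mem_filter, mem_univ, true_and] at hb
            rw [mem_filter, mem_erase, mem_dset]
            refine ⟨⟨fun e => hb (e ▸ .refl _ _), mem_univ _⟩, fun h => hb h.swap⟩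
        _ ≤ ∑ c, ((univ.erase a₀).filter fun b => c ∈ dset G a₀ b).card :=
            sum_le_sum_of_subset (subset_univ _)
        _ = ∑ b ∈ univ.erase a₀, (dset G a₀ b).card := by
            simp only [card_filter]
            rw [sum_comm]
            simp
    have hn2 : 0 < Fintype.card Ω - 1 := by
      have : 1 < Fintype.card Ω := Fintype.one_lt_card_iff.2 ⟨a₀, b₀, hne⟩
      omega
    have hr1 : Fintype.card Ω - M ≤ 2 * D := Nat.le_of_mul_le_mul_left hsum hn2
    obtain ⟨z, hzx, hz⟩ := h3 x y hxy
    have hout := card_le_out (fun a b => SameOrb G x z a b) (fun g a b h => h.trans (sameOrb_smul g a b))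
      (a := x) (b₀ := z) (.refl _ _) hzx.symm (D := 2 * D) (fun b _ => hdia x b)
    have hrest : (univ.filter fun b => SameOrb G x z x b).card + 1 ≤ Fintype.card Ω - M := by
      have hsub : insert x (univ.filter fun b => SameOrb G x z x b) ⊆ univ \ cl x y := by
        intro b hb
        simp only [mem_insert, mem_filter, mem_univ, true_and] at hb
        simp only [cl, mem_sdiff, mem_filter, mem_univ, true_and]
        intro hxyb
        rcases hb with rfl | hb
        · obtain ⟨g, e1, e2⟩ := hxyb
          exact hxy (MulAction.injective g (e1.trans e2.symm))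
        · exact hz (hxyb.trans hb.symm)
      have := card_le_card hsub
      rw [card_univ_sdiff, card_insert_of_notMem (by
        simp only [mem_filter, mem_univ, true_and]
        rintro ⟨g, e1, e2⟩
        exact hzx.symm (MulAction.injective g (e1.trans e2.symm)))] at this
      exact this
    set r := (univ.filter fun b => SameOrb G x z x b).card
    have h9 : Fintype.card Ω - 1 ≤ 2 * D * (2 * D) := hout.trans (Nat.mul_le_mul_right _ (by omega))
    have : Fintype.card Ω ≤ 4 * (D * D) + 1 := by
      have : 2 * D * (2 * D) = 4 * (D * D) := by ring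
      omega
    nlinarith

/-- A commutator of two permutations whose supports meet in one point. -/
lemma isThreeCycle_commutator {g h : Equiv.Perm Ω} {a : Ω} (hg : g a ≠ a) (hh : h a ≠ a)
    (hmeet : ∀ x, x ≠ a → g x = x ∨ h x = x) : (g * h * g⁻¹ * h⁻¹).IsThreeCycle := by
  have hgp : ∀ x, g x = x → g⁻¹ x = x := fun x e => g.injective (by simp [e])
  have hhp : ∀ x, h x = x → h⁻¹ x = x := fun x e => h.injective (by simp [e])
  have hb : h (g a) = g a := by
    rcases hmeet (g a) hg with e | e
    · exact absurd (g.injective e) hg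
    · exact e
  have hc : g (h a) = h a := by
    rcases hmeet (h a) hh with e | e
    · exact e
    · exact absurd (h.injective e) hh
  have hgh : g a ≠ h a := fun e => hg (by
    have := hb; rw [e] at this; exact absurd (h.injective this) hh)
  have happ : ∀ x, (g * h * g⁻¹ * h⁻¹) x = g (h (g⁻¹ (h⁻¹ x))) := fun x => rfl
  have h1 : (g * h * g⁻¹ * h⁻¹) a = g a := by
    rw [happ]
    have hp : h⁻¹ a ≠ a := fun e => hh (by conv_lhs => rw [← e]; simp)
    rcases hmeet _ hp with e | e
    · rw [hgp _ e]; simp
    · exact absurd (by simpa using e.symm) hp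
  have h2 : (g * h * g⁻¹ * h⁻¹) (g a) = h a := by
    rw [happ, hhp _ hb]; simp [hc]
  have h3 : (g * h * g⁻¹ * h⁻¹) (h a) = a := by
    rw [happ, show h⁻¹ (h a) = a by simp]
    have hp : g⁻¹ a ≠ a := fun e => hg (by conv_lhs => rw [← e]; simp)
    rcases hmeet _ hp with e | e
    · exact absurd (by simpa using e.symm) hp
    · rw [e]; simp
  have hsupp : (g * h * g⁻¹ * h⁻¹).support = {a, g a, h a} := by
    refine le_antisymm (fun x hx => ?_) fun x hx => ?_
    · by_contra hcon
      simp only [mem_insert, mem_singleton, not_or] at hcon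
      obtain ⟨xa, xb, xc⟩ := hcon
      rw [Equiv.Perm.mem_support, happ] at hx
      apply hx
      have hga : g⁻¹ x ≠ a := fun e => xb (by rw [← e]; simp)
      by_cases hhx : h x = x
      · rw [hhp _ hhx]
        rcases hmeet _ hga with e | e
        · have : x = g⁻¹ x := by simpa using e
          rw [← this, hhx]
          rw [← this] at e; exact e
        · rw [e]; simp
      · have hgx := (hmeet x xa).resolve_right hhx
        have hp : h⁻¹ x ≠ a := fun e => xc (by rw [← e]; simp)
        rcases hmeet _ hp with e | e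
        · rw [hgp _ e]; simp [hgx]
        · exact absurd (by
            have : x = h⁻¹ x := by simpa using e
            rw [← this] at e; exact e) hhx
    · simp only [mem_insert, mem_singleton] at hx
      rw [Equiv.Perm.mem_support]
      rcases hx with rfl | rfl | rfl
      · rw [h1]; exact hg
      · rw [h2]; exact Ne.symm hgh
      · rw [h3]; exact hh.symm
  rw [← card_support_eq_three_iff, hsupp, card_insert_of_notMem, card_pair hgh]
  simp [hg.symm, hh.symm]

/-- The doubly transitive case. -/
theorem card_le_of_two_transitive [Finite G] {g : G} {a : Ω} (ha : g • a ≠ a)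
    (h2 : ∀ x y z : Ω, y ≠ x → z ≠ x → ∃ k : G, k • x = x ∧ k • y = z)
    (h3c : ∀ k : G, ¬ (toPermHom G Ω k).IsThreeCycle) :
    Fintype.card Ω ≤ (Fintype.card Ω - Nat.card (fixedBy Ω g)) ^ 2 + 1 := by
  classical
  haveI := Fintype.ofFinite G
  by_contra hcon
  push Not at hcon
  set S := univ.filter fun c : Ω => g • c ≠ c with hS
  have hScard : S.card = Fintype.card Ω - Nat.card (fixedBy Ω g) := by
    have e : Nat.card (fixedBy Ω g) = (univ.filter fun c : Ω => g • c = c).card := by
      rw [Nat.card_eq_fintype_card]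
      exact Fintype.card_subtype _
    rw [e, ← card_compl]
    congr 1; ext c; simp [hS]
  set K := univ.filter fun k : G => k • a = a with hK
  have hfib : ∀ y, y ≠ a → ∀ z, z ≠ a →
      (K.filter fun k => k • y = z).card * (Fintype.card Ω - 1) = K.card := by
    intro y hy z hz
    have hmaps : ∀ k ∈ K, k • y ∈ univ.erase a := fun k hk => mem_erase.2 ⟨fun e => hy
      (MulAction.injective k (e.trans (by simpa [hK] using hk : k • a = a).symm)), mem_univ _⟩
    rw [card_eq_sum_card_fiberwise hmaps]
    rw [sum_const_nat (m := (K.filter fun k => k • y = z).card) (fun w hw => ?_),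
      card_erase_of_mem (mem_univ _), card_univ, mul_comm]
    obtain ⟨k₀, hk₀, hk₁⟩ := h2 a w z (mem_erase.1 hw).1 hz
    refine Finset.card_bij (fun k _ => k₀ * k) (fun k hk => ?_) (fun k _ l _ e => mul_left_cancel e)
      fun l hl => ⟨k₀⁻¹ * l, ?_, by group⟩
    · simp only [hK, mem_filter, mem_univ, true_and] at hk ⊢
      rw [mul_smul, mul_smul, hk.1, hk.2]; exact ⟨hk₀, hk₁⟩
    · simp only [hK, mem_filter, mem_univ, true_and] at hl ⊢
      rw [mul_smul, mul_smul, hl.1, hl.2, inv_smul_eq_iff, inv_smul_eq_iff]
      exact ⟨hk₀.symm, hk₁.symm⟩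
  have hKpos : 0 < K.card := card_pos.2 ⟨1, by simp [hK]⟩
  set T := S.erase a with hT
  have hbad : (K.filter fun k => ∃ y ∈ T, k • y ∈ T).card * (Fintype.card Ω - 1) ≤ S.card ^ 2 * K.card := by
    have hsub : (K.filter fun k => ∃ y ∈ T, k • y ∈ T) ⊆
        (T ×ˢ T).biUnion fun p => K.filter fun k => k • p.1 = p.2 := by
      intro k hk
      simp only [mem_filter] at hk
      obtain ⟨y, hy, hy'⟩ := hk.2
      exact mem_biUnion.2 ⟨(y, k • y), mem_product.2 ⟨hy, hy'⟩, by simp [hk.1]⟩
    refine (Nat.mul_le_mul_right _ ((card_le_card hsub).trans card_biUnion_le)).trans ?_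
    rw [sum_mul]
    refine (sum_le_card_nsmul _ _ K.card fun p hp => le_of_eq ?_).trans ?_
    · rw [mem_product] at hp
      exact hfib _ (mem_erase.1 hp.1).1 _ (mem_erase.1 hp.2).1
    · rw [smul_eq_mul, card_product, pow_two]
      exact Nat.mul_le_mul_right _ (Nat.mul_le_mul (card_le_card (erase_subset _ _))
        (card_le_card (erase_subset _ _)))
  obtain ⟨k, hk, hkT⟩ : ∃ k ∈ K, ∀ y ∈ T, k • y ∉ T := by
    by_contra hall
    push Not at hall
    rw [filter_true_of_mem hall] at hbad
    rw [mul_comm] at hbad
    have := Nat.le_of_mul_le_mul_right hbad hKpos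
    rw [hScard] at this
    omega
  simp only [hK, mem_filter, mem_univ, true_and] at hk
  have hka : k⁻¹ • a = a := by rw [inv_smul_eq_iff, hk]
  refine h3c (g * (k * g * k⁻¹) * g⁻¹ * (k * g * k⁻¹)⁻¹) ?_
  rw [map_mul, map_mul, map_mul, map_inv, map_inv]
  refine isThreeCycle_commutator (a := a) ?_ ?_ fun x hx => ?_
  · simpa using ha
  · simp only [toPermHom_apply, toPerm_apply]
    rw [mul_smul, mul_smul, hka]
    exact fun e => ha (MulAction.injective k (e.trans hk.symm))
  · simp only [toPermHom_apply, toPerm_apply]
    by_contra hx'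
    push Not at hx'
    obtain ⟨hgx, hkx⟩ := hx'
    have hy : k⁻¹ • x ∈ T := by
      rw [hT, mem_erase, hS, mem_filter]
      refine ⟨fun e => hx ?_, mem_univ _, fun e => hkx ?_⟩
      · rw [← smul_inv_smul k x, e, hk]
      · rw [mul_smul, mul_smul, e, smul_inv_smul]
    exact hkT _ hy (by rw [smul_inv_smul, hT, mem_erase, hS, mem_filter]; exact ⟨hx, mem_univ _, hgx⟩)

end Cfsg.Agent.Lib.Perm.MinimalDegreeBound
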