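import Mathlib.FieldTheory.Galois.Basic
import Mathlib.FieldTheory.Finite.Basic
import Mathlib.FieldTheory.Finite.GaloisField
import Mathlib.RingTheory.Algebraic.Integral
import Mathlib.Algebra.Algebra.Bilinear
import Mathlib.LinearAlgebra.Basis.VectorSpace

/-!
Singer groups: multiplications by the nonzero elements of a finite field extension.
-/

set_option autoImplicit false

namespace Cfsg.Agent.Lib.Perm.Singer

variable {F K : Type*} [Field F] [Field K] [Algebra F K]

/-- Multiplication as a hom into the units. -/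
abbrev mulU : Kˣ →* (Module.End F K)ˣ :=
  Units.map ((Algebra.lmul F K : K →ₐ[F] Module.End F K) : K →* Module.End F K)

theorem mulU_apply (a : Kˣ) (x : K) :
    ((mulU (F := F) a : (Module.End F K)ˣ) : Module.End F K) x = (a : K) * x := rfl

theorem mulU_injective : Function.Injective (mulU (F := F) (K := K)) := fun a b h => by
  refine Units.ext ?_
  have := congrArg (fun z : (Module.End F K)ˣ => (z : Module.End F K) 1) h
  simpa [mulU_apply] using this

/-- Conjugated multiplication. -/
def conjMul (g : (Module.End F K)ˣ) : K →ₐ[F] Module.End F K where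
  toFun a := (g : Module.End F K) * Algebra.lmul F K a * (↑g⁻¹ : Module.End F K)
  map_one' := by rw [map_one, mul_one, Units.mul_inv]
  map_mul' a b := by
    rw [map_mul]
    simp [mul_assoc]
  map_zero' := by simp
  map_add' a b := by rw [map_add, mul_add, add_mul]
  commutes' c := by
    rw [AlgHom.commutes, ← Algebra.commutes, mul_assoc, Units.mul_inv, mul_one]

theorem conjMul_units (g : (Module.End F K)ˣ) (a : Kˣ) :
    ((g * mulU a * g⁻¹ : (Module.End F K)ˣ) : Module.End F K) = conjMul g (a : K) := rfl

theorem card_normalizer [Finite F] [Finite K] {n : ℕ} (hdim : Module.finrank F K = n) :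
    Nat.card (Subgroup.normalizer (((mulU (F := F) (K := K)).range : Subgroup (Module.End F K)ˣ) : Set (Module.End F K)ˣ)) =
      n * (Nat.card K - 1) := by
  classical
  have := Fintype.ofFinite K
  set N := Subgroup.normalizer (((mulU (F := F) (K := K)).range : Subgroup (Module.End F K)ˣ) : Set (Module.End F K)ˣ)
  let Φ : (K ≃ₐ[F] K) × Kˣ → (Module.End F K)ˣ := fun z =>
    mulU z.2 * ⟨z.1.toLinearMap, z.1.symm.toLinearMap,
      LinearMap.ext fun x => z.1.apply_symm_apply x, LinearMap.ext fun x => z.1.symm_apply_apply x⟩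
  have hΦ : ∀ z x, ((Φ z : (Module.End F K)ˣ) : Module.End F K) x = (z.2 : K) * z.1 x := fun _ _ => rfl
  have hmem : ∀ z, Φ z ∈ N := by
    intro z
    rw [Subgroup.mem_normalizer_iff]
    have key : ∀ b : Kˣ, Φ z * mulU b = mulU (Units.map (z.1 : K →* K) b) * Φ z := fun b =>
      Units.ext (LinearMap.ext fun x => by
        show (z.2 : K) * z.1 ((b : K) * x) = z.1 (b : K) * ((z.2 : K) * z.1 x)
        rw [map_mul]
        exact mul_left_comm _ _ _)
    intro h
    constructor
    · rintro ⟨b, rfl⟩
      exact ⟨_, (by rw [key, mul_inv_cancel_right] : Φ z * mulU b * (Φ z)⁻¹ = _).symm⟩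
    · rintro ⟨b, hb⟩
      refine ⟨Units.map (z.1.symm : K →* K) b, mul_right_injective (Φ z) ?_⟩
      show Φ z * mulU _ = Φ z * h
      rw [key]
      have hb' : mulU b * Φ z = Φ z * h := by rw [hb, inv_mul_cancel_right]
      rw [← hb']
      congr 2
      exact Units.ext (z.1.apply_symm_apply _)
  have hbij : Function.Bijective (fun z => (⟨Φ z, hmem z⟩ : N)) := by
    refine ⟨fun z w e => ?_, fun ⟨g, hg⟩ => ?_⟩
    · have e' : ∀ x, (z.2 : K) * z.1 x = (w.2 : K) * w.1 x := fun x => by
        rw [← hΦ, ← hΦ]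
        exact congrArg (fun u : N => ((u : (Module.End F K)ˣ) : Module.End F K) x) e
      have h2 : z.2 = w.2 := Units.ext (by simpa using e' 1)
      refine Prod.ext (AlgEquiv.ext fun x => mul_left_cancel₀ z.2.ne_zero ((e' x).trans (by rw [h2]))) h2
    · rw [Subgroup.mem_normalizer_iff] at hg
      have hrange : ∀ a : K, conjMul g a ∈ (Algebra.lmul F K : K →ₐ[F] Module.End F K).range := by
        intro a
        by_cases ha : a = 0
        · exact ⟨0, by rw [ha, map_zero, map_zero]⟩
        obtain ⟨b, hb⟩ := (hg _).mp ⟨Units.mk0 a ha, rfl⟩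
        exact ⟨b, (congrArg (fun u : (Module.End F K)ˣ => (u : Module.End F K)) hb).trans (conjMul_units g _)⟩
      choose σ₀ hσ₀ using hrange
      have hinj : Function.Injective (Algebra.lmul F K : K →ₐ[F] Module.End F K) := Algebra.lmul_injective
      let σ : K →ₐ[F] K :=
        { toFun := σ₀
          map_one' := hinj (by rw [AlgHom.toRingHom_eq_coe] at hσ₀; exact (hσ₀ 1).trans ((map_one (conjMul g)).trans (map_one (Algebra.lmul F K)).symm))
          map_mul' := fun a b => hinj ((hσ₀ _).trans ((map_mul (conjMul g) a b).trans ((congrArg₂ (· * ·) (hσ₀ a).symm (hσ₀ b).symm).trans (map_mul (Algebra.lmul F K) _ _).symm)))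
          map_zero' := hinj ((hσ₀ 0).trans ((map_zero (conjMul g)).trans (map_zero (Algebra.lmul F K)).symm))
          map_add' := fun a b => hinj ((hσ₀ _).trans ((map_add (conjMul g) a b).trans ((congrArg₂ (· + ·) (hσ₀ a).symm (hσ₀ b).symm).trans (map_add (Algebra.lmul F K) _ _).symm)))
          commutes' := fun c => hinj ((hσ₀ _).trans (((conjMul g).commutes c).trans ((Algebra.lmul F K).commutes c).symm)) }
      have hfin : FiniteDimensional F K := Module.Finite.of_finite
      let τ : K ≃ₐ[F] K := AlgEquiv.ofBijective σ (Finite.injective_iff_bijective.mp σ.toRingHom.injective)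
      have hg1 : (g : Module.End F K) 1 ≠ 0 := fun e => by
        have h2 : (↑g⁻¹ : Module.End F K) ((g : Module.End F K) 1) = 1 := by
          rw [← Module.End.mul_apply, Units.inv_mul, Module.End.one_apply]
        rw [e, map_zero] at h2
        exact zero_ne_one h2
      refine ⟨(τ, Units.mk0 _ hg1), Subtype.ext (Units.ext (LinearMap.ext fun x => ?_))⟩
      rw [hΦ]
      have h3 := congrArg (fun u : Module.End F K => u ((g : Module.End F K) 1)) (hσ₀ x)
      have h4 : (↑g⁻¹ : Module.End F K) ((g : Module.End F K) 1) = 1 := by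
        rw [← Module.End.mul_apply, Units.inv_mul, Module.End.one_apply]
      simp only [conjMul, AlgHom.coe_mk, RingHom.coe_mk, MonoidHom.coe_mk, OneHom.coe_mk,
        Module.End.mul_apply, h4] at h3
      show (g : Module.End F K) 1 * σ₀ x = (g : Module.End F K) x
      simpa [mul_comm] using h3
  rw [← Nat.card_eq_of_bijective _ hbij, Nat.card_prod, Nat.card_units]
  have hfin : FiniteDimensional F K := Module.Finite.of_finite
  rw [show Nat.card (K ≃ₐ[F] K) = n from (IsGalois.card_aut_eq_finrank F K).trans hdim]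

theorem inter_dvd [Fintype F] [Finite K] {n : ℕ} (hdim : Module.finrank F K = n)
    (g : (Module.End F K)ˣ)
    (hg : (mulU (F := F) (K := K)).range.map (MulAut.conj g).toMonoidHom ≠ (mulU (F := F) (K := K)).range) :
    ∃ r : ℕ, 1 ≤ r ∧ r ∣ n ∧ r < n ∧
      Nat.card ↥((mulU (F := F) (K := K)).range.map (MulAut.conj g).toMonoidHom ⊓ (mulU (F := F) (K := K)).range) ∣
        Fintype.card F ^ r - 1 := by
  classical
  have hfin : FiniteDimensional F K := Module.Finite.of_finite
  let A : Subalgebra F K := (Algebra.lmul F K : K →ₐ[F] Module.End F K).range.comap (conjMul g)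
  let E : IntermediateField F K := A.toIntermediateField fun x hx => A.inv_mem_of_algebraic (x := ⟨x, hx⟩) (Algebra.IsAlgebraic.isAlgebraic x)
  have : Finite (Module.End F K) := Finite.of_injective (fun f => (f : K → K)) DFunLike.coe_injective
  set M := (mulU (F := F) (K := K)).range with hM
  have hmemE : ∀ a : Kˣ, (a : K) ∈ E ↔ g * mulU a * g⁻¹ ∈ M := by
    intro a
    constructor
    · rintro ⟨b, hb⟩
      have hb0 : b ≠ 0 := fun e => by
        rw [e, map_zero] at hb
        exact (g * mulU a * g⁻¹).ne_zero ((conjMul_units g a).trans hb.symm)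
      exact ⟨Units.mk0 b hb0, Units.ext (hb.trans (conjMul_units g a).symm)⟩
    · rintro ⟨b, hb⟩
      exact ⟨b, (congrArg (fun u : (Module.End F K)ˣ => (u : Module.End F K)) hb).trans (conjMul_units g a)⟩
  have hcard : Nat.card ↥(M.map (MulAut.conj g).toMonoidHom ⊓ M) ∣ Nat.card Eˣ := by
    let ψ : Eˣ →* ↥(M.map (MulAut.conj g).toMonoidHom ⊓ M) :=
      { toFun := fun u => ⟨g * mulU (Units.map (E.val : E →* K) u) * g⁻¹,
          ⟨mulU (Units.map (E.val : E →* K) u), ⟨_, rfl⟩, rfl⟩, (hmemE _).mp (u : E).2⟩
        map_one' := Subtype.ext (by simp)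
        map_mul' := fun u v => Subtype.ext (by
          show g * mulU (Units.map (E.val : E →* K) (u * v)) * g⁻¹ =
            (g * mulU (Units.map (E.val : E →* K) u) * g⁻¹) * (g * mulU (Units.map (E.val : E →* K) v) * g⁻¹)
          rw [map_mul, map_mul]; group) }
    refine Subgroup.card_dvd_of_surjective ψ ?_
    rintro ⟨z, ⟨w, ⟨a, rfl⟩, rfl⟩, hz⟩
    have ha : (a : K) ∈ E := (hmemE a).mpr hz
    exact ⟨Units.mk0 ⟨a, ha⟩ (fun e => a.ne_zero (congrArg Subtype.val e)), Subtype.ext (by
      show g * mulU _ * g⁻¹ = g * mulU a * g⁻¹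
      congr 3
      exact Units.ext rfl)⟩
  refine ⟨Module.finrank F E, Module.finrank_pos, ?_, ?_, ?_⟩
  · rw [← hdim, ← Module.finrank_mul_finrank F E K]; exact dvd_mul_right _ _
  · rw [← hdim]
    refine lt_of_le_of_ne E.toSubalgebra.toSubmodule.finrank_le fun e => hg ?_
    have htop : E = ⊤ := IntermediateField.eq_of_le_of_finrank_eq le_top (e.trans IntermediateField.finrank_top'.symm)
    refine Subgroup.eq_of_le_of_card_ge ?_ (le_of_eq ?_)
    · rintro _ ⟨w, ⟨a, rfl⟩, rfl⟩
      exact (hmemE a).mp (htop ▸ IntermediateField.mem_top)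
    · exact Nat.card_congr (M.equivMapOfInjective _ (MulAut.conj g).injective).toEquiv
  · refine hcard.trans (dvd_of_eq ?_)
    have : Fintype E := Fintype.ofFinite E
    rw [Nat.card_units, Nat.card_eq_fintype_card, ← Module.card_eq_pow_finrank]

end Cfsg.Agent.Lib.Perm.Singer
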